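import Cfsg.Agent.H34.SymEight.Data

/-!
# First consequences of the Sym(8) data
-/

set_option autoImplicit false
set_option maxRecDepth 10000

namespace Cfsg.Agent.H34.SymEight

open Equiv

theorem comm_t5 : ∀ σ : Perm (Fin 5), σ * t5 = t5 * σ →
    ∃ j < 3, ∃ k < 2, σ = t5 ^ j * c5 ^ k := by decide +kernel

theorem comm_c5 : ∀ σ : Perm (Fin 5), σ * c5 = c5 * σ →
    σ * t5 * σ⁻¹ = t5 ∨ σ * t5 * σ⁻¹ = t5⁻¹ := by decide +kernel

theorem w3_conj : w3 * u3 * w3 = u3⁻¹ := by decide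

theorem sq_perm_three : ∀ i < 3, (u3 ^ i) ^ 2 = 1 → i = 0 := by decide

theorem u3_pow_inj : ∀ i < 3, u3 ^ i = 1 → i = 0 := by decide

theorem t5_pow_inj : ∀ i < 3, t5 ^ i = 1 → i = 0 := by decide

namespace Data

variable {G : Type*} [Group G] (d : Data G)

theorem z_cube : d.z ^ 3 = 1 := by rw [z, ← map_pow, u3_pow_three, map_one]

theorem z'_cube : d.z' ^ 3 = 1 := by rw [z', ← map_pow, t5_pow_three, map_one]

theorem ι_injective : Function.Injective d.ι :=
  (injective_iff_map_eq_one d.ι).2 fun σ h => (d.inj 1 σ (by rw [h, map_one, mul_one])).2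

theorem ιL_injective : Function.Injective d.ιL :=
  (injective_iff_map_eq_one d.ιL).2 fun σ h => (d.inj σ 1 (by rw [h, map_one, mul_one])).1

theorem c_sq : d.c * d.c = 1 := by rw [c, ← map_mul, c5_sq, map_one]

theorem c_ne : d.c ≠ 1 := by
  rw [c, Ne, map_eq_one_iff _ d.ι_injective]; decide

theorem s_sq : d.s * d.s = 1 := by rw [s, ← map_mul, w3_sq, map_one]

theorem z_ι (σ : Perm (Fin 5)) : Commute d.z (d.ι σ) := d.comm _ _

theorem s_ι (σ : Perm (Fin 5)) : Commute d.s (d.ι σ) := d.comm _ _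

theorem z_z' : Commute d.z d.z' := d.z_ι _

theorem z_c : Commute d.z d.c := d.z_ι _

theorem z'_c : Commute d.z' d.c :=
  (show Commute t5 c5 from c5_comm.symm).map d.ι

theorem s_c : Commute d.s d.c := d.s_ι _

theorem s_z : d.s * d.z * d.s = d.z⁻¹ := by
  rw [s, z, ← map_mul, ← map_mul, ← map_inv, w3_conj]

theorem s_z' : Commute d.s d.z' := d.s_ι _

theorem q_inv : d.q⁻¹ = d.q := inv_eq_of_mul_eq_one_right d.q_sq

theorem qzq : d.q * d.z * d.q = d.z' := d.q_z

theorem qz'q : d.q * d.z' * d.q = d.z := by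
  rw [← d.qzq, show d.q * (d.q * d.z * d.q) * d.q = (d.q * d.q) * d.z * (d.q * d.q) by group,
    d.q_sq, one_mul, mul_one]

theorem z_mem : d.z ∈ d.D := Subgroup.subset_closure (Set.mem_insert _ _)

theorem z'_mem : d.z' ∈ d.D :=
  Subgroup.subset_closure (Set.mem_insert_of_mem _ (Set.mem_singleton _))

theorem mem_D {g : G} : g ∈ d.D ↔ ∃ i j : ℕ, i < 3 ∧ j < 3 ∧ g = d.z ^ i * d.z' ^ j := by
  constructor
  · intro hg
    suffices ∃ i j : ℕ, g = d.z ^ i * d.z' ^ j by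
      obtain ⟨i, j, rfl⟩ := this
      refine ⟨i % 3, j % 3, Nat.mod_lt _ (by norm_num), Nat.mod_lt _ (by norm_num), ?_⟩
      rw [← pow_eq_pow_mod i d.z_cube, ← pow_eq_pow_mod j d.z'_cube]
    induction hg using Subgroup.closure_induction with
    | mem x hx =>
      rcases hx with rfl | rfl
      · exact ⟨1, 0, by simp⟩
      · exact ⟨0, 1, by simp⟩
    | one => exact ⟨0, 0, by simp⟩
    | mul a b _ _ ha hb =>
      obtain ⟨i, j, rfl⟩ := ha
      obtain ⟨i', j', rfl⟩ := hb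
      refine ⟨i + i', j + j', ?_⟩
      have h : d.z' ^ j * d.z ^ i' = d.z ^ i' * d.z' ^ j := ((d.z_z'.pow_pow i' j).eq).symm
      rw [pow_add, pow_add, mul_assoc, ← mul_assoc (d.z' ^ j), h, mul_assoc, ← mul_assoc]
    | inv a _ ha =>
      obtain ⟨i, j, rfl⟩ := ha
      refine ⟨2 * i, 2 * j, ?_⟩
      apply inv_eq_of_mul_eq_one_left
      have h : d.z' ^ (2 * j) * d.z ^ i = d.z ^ i * d.z' ^ (2 * j) :=
        ((d.z_z'.pow_pow i (2 * j)).eq).symm
      rw [mul_assoc, ← mul_assoc (d.z' ^ (2 * j)), h, mul_assoc, ← mul_assoc, ← pow_add, ← pow_add,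
        show 2 * i + i = 3 * i by ring, show 2 * j + j = 3 * j by ring, pow_mul, pow_mul,
        d.z_cube, d.z'_cube, one_pow, one_pow, one_mul]
  · rintro ⟨i, j, -, -, rfl⟩
    exact mul_mem (pow_mem d.z_mem i) (pow_mem d.z'_mem j)

/-- Elements commuting with `z`. -/
theorem of_comm_z {g : G} (h : Commute g d.z) :
    ∃ (i : ℕ) (σ : Perm (Fin 5)), i < 3 ∧ g = d.z ^ i * d.ι σ := by
  obtain ⟨i, σ, rfl⟩ := d.mem_cz g h
  exact ⟨i % 3, σ, Nat.mod_lt _ (by norm_num), by rw [← pow_eq_pow_mod i d.z_cube]; rfl⟩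

theorem split_eq {i j : ℕ} {σ τ : Perm (Fin 5)} (hi : i < 3) (hj : j < 3)
    (h : d.z ^ i * d.ι σ = d.z ^ j * d.ι τ) : i = j ∧ σ = τ := by
  rw [z, ← map_pow, ← map_pow] at h
  have h2 : d.ιL ((u3 ^ j)⁻¹ * u3 ^ i) * d.ι (σ * τ⁻¹) = 1 := by
    rw [map_mul, map_inv, map_mul, map_inv,
      show (d.ιL (u3 ^ j))⁻¹ * d.ιL (u3 ^ i) * (d.ι σ * (d.ι τ)⁻¹) =
        (d.ιL (u3 ^ j))⁻¹ * (d.ιL (u3 ^ i) * d.ι σ) * (d.ι τ)⁻¹ by group, h]
    group
  obtain ⟨h3, h4⟩ := d.inj _ _ h2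
  refine ⟨?_, mul_inv_eq_one.1 h4⟩
  have h5 := (inv_mul_eq_one.1 h3)
  clear h h2 h3
  revert h5
  interval_cases i <;> interval_cases j <;> decide

theorem card_centralizer_z : Nat.card (Subgroup.centralizer ({d.z} : Set G)) = 360 := by
  have hmem : ∀ (x : Fin 3 × Perm (Fin 5)), d.z ^ (x.1 : ℕ) * d.ι x.2 ∈
      Subgroup.centralizer ({d.z} : Set G) := by
    intro x
    rw [Subgroup.mem_centralizer_singleton_iff]
    exact (((Commute.refl d.z).pow_right x.1).mul_right (d.z_ι x.2)).eq.symm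
  let f : Fin 3 × Perm (Fin 5) → Subgroup.centralizer ({d.z} : Set G) := fun x => ⟨_, hmem x⟩
  have hf : Function.Bijective f := by
    constructor
    · rintro ⟨i, σ⟩ ⟨j, τ⟩ h
      obtain ⟨h1, h2⟩ := d.split_eq i.2 j.2 (Subtype.ext_iff.1 h)
      exact Prod.ext (Fin.ext h1) h2
    · rintro ⟨g, hg⟩
      obtain ⟨i, σ, hi, rfl⟩ := d.of_comm_z (Subgroup.mem_centralizer_singleton_iff.1 hg)
      exact ⟨(⟨i, hi⟩, σ), rfl⟩
  rw [← Nat.card_eq_of_bijective f hf, Nat.card_prod, Nat.card_perm, Nat.card_eq_fintype_card,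
    Nat.card_eq_fintype_card, Fintype.card_fin, Fintype.card_fin]
  rfl

/-- Elements commuting with `z` and `z'`. -/
theorem of_comm_D {g : G} (h : Commute g d.z) (h' : Commute g d.z') :
    g ∈ d.D ∨ ∃ x ∈ d.D, g = x * d.c := by
  obtain ⟨i, σ, hi, rfl⟩ := d.of_comm_z h
  have hσ : σ * t5 = t5 * σ := by
    apply d.ι_injective
    rw [map_mul, map_mul]
    have h2 : Commute ((d.z ^ i)⁻¹ * (d.z ^ i * d.ι σ)) d.z' :=
      ((d.z_z'.pow_left i).inv_left).mul_left h'
    rw [inv_mul_cancel_left] at h2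
    exact h2
  obtain ⟨j, hj, k, hk, rfl⟩ := comm_t5 σ hσ
  have hd : d.z ^ i * d.ι (t5 ^ j) ∈ d.D :=
    mul_mem (pow_mem d.z_mem i) (by rw [map_pow]; exact pow_mem d.z'_mem j)
  interval_cases k
  · left; rwa [pow_zero, mul_one]
  · right; exact ⟨_, hd, by rw [pow_one, map_mul]; simp [c, mul_assoc]⟩

theorem D_cube {x : G} (hx : x ∈ d.D) : x ^ 3 = 1 := by
  obtain ⟨i, j, -, -, rfl⟩ := d.mem_D.1 hx
  rw [(d.z_z'.pow_pow i j).mul_pow, ← pow_mul, ← pow_mul, mul_comm i, mul_comm j, pow_mul,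
    pow_mul, d.z_cube, d.z'_cube, one_pow, one_pow, one_mul]

theorem D_comm {x y : G} (hx : x ∈ d.D) (hy : y ∈ d.D) : Commute x y := by
  obtain ⟨i, j, -, -, rfl⟩ := d.mem_D.1 hx
  obtain ⟨i', j', -, -, rfl⟩ := d.mem_D.1 hy
  exact ((((Commute.refl d.z).pow_pow i i').mul_right (d.z_z'.pow_pow i j'))).mul_left
    ((((d.z_z'.pow_pow i' j).symm)).mul_right ((Commute.refl d.z').pow_pow j j'))

theorem D_c {x : G} (hx : x ∈ d.D) : Commute x d.c := by
  obtain ⟨i, j, -, -, rfl⟩ := d.mem_D.1 hx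
  exact (d.z_c.pow_left i).mul_left (d.z'_c.pow_left j)

/-- An involution centralising `D` is `c`. -/
theorem eq_c_of_comm {g : G} (h : Commute g d.z) (h' : Commute g d.z') (h2 : g * g = 1) :
    g = 1 ∨ g = d.c := by
  rcases d.of_comm_D h h' with hg | ⟨x, hx, rfl⟩
  · left
    have := d.D_cube hg
    rwa [pow_succ, pow_two, h2, one_mul] at this
  · right
    have h3 : x * x = 1 := by
      rw [show x * d.c * (x * d.c) = x * (d.c * x) * d.c by group, ← (d.D_c hx).eq,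
        show x * (x * d.c) * d.c = (x * x) * (d.c * d.c) by group, d.c_sq, mul_one] at h2
      exact h2
    have := d.D_cube hx
    rw [pow_succ, pow_two, h3, one_mul] at this
    rw [this, one_mul]

theorem conj_mem_D {n x : G} (hn : n ∈ Subgroup.normalizer (d.D : Set G)) (hx : x ∈ d.D) :
    n * x * n⁻¹ ∈ d.D :=
  (Subgroup.mem_normalizer_iff.1 hn x).1 hx

theorem inv_conj_mem_D {n x : G} (hn : n ∈ Subgroup.normalizer (d.D : Set G)) (hx : x ∈ d.D) :
    n⁻¹ * x * n ∈ d.D := by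
  simpa using d.conj_mem_D (inv_mem hn) hx

theorem norm_le_centralizer_c :
    Subgroup.normalizer (d.D : Set G) ≤ Subgroup.centralizer ({d.c} : Set G) := by
  intro n hn
  rw [Subgroup.mem_centralizer_singleton_iff]
  have key : ∀ x ∈ d.D, Commute (n * d.c * n⁻¹) x := by
    intro x hx
    have h := (d.D_c (d.inv_conj_mem_D hn hx)).symm.eq
    calc n * d.c * n⁻¹ * x = n * (d.c * (n⁻¹ * x * n)) * n⁻¹ := by group
      _ = n * ((n⁻¹ * x * n) * d.c) * n⁻¹ := by rw [h]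
      _ = x * (n * d.c * n⁻¹) := by group
  rcases d.eq_c_of_comm (key _ d.z_mem) (key _ d.z'_mem)
      (by rw [show n * d.c * n⁻¹ * (n * d.c * n⁻¹) = n * (d.c * d.c) * n⁻¹ by group, d.c_sq]; group)
    with h | h
  · exact absurd (conj_eq_one_iff.1 h) d.c_ne
  · rwa [mul_inv_eq_iff_eq_mul] at h

theorem mem_norm_of {n : G} [Finite G] (h1 : n * d.z * n⁻¹ ∈ d.D) (h2 : n * d.z' * n⁻¹ ∈ d.D) :
    n ∈ Subgroup.normalizer (d.D : Set G) := by
  have hle : d.D.map (MulAut.conj n).toMonoidHom ≤ d.D := by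
    rw [D, MonoidHom.map_closure, Subgroup.closure_le]
    rintro _ ⟨a, (rfl | rfl), rfl⟩
    · exact h1
    · exact h2
  have heq : d.D.map (MulAut.conj n).toMonoidHom = d.D :=
    Subgroup.eq_of_le_of_card_ge hle
      (le_of_eq (Nat.card_congr (Subgroup.equivMapOfInjective _ _ (MulAut.conj n).injective).toEquiv))
  rw [Subgroup.mem_normalizer_iff]
  intro x
  constructor
  · intro hx
    rw [← heq]
    exact ⟨x, hx, rfl⟩
  · intro hx
    rw [← heq] at hx
    obtain ⟨y, hy, hyx⟩ := hx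
    have : y = x := (MulAut.conj n).injective hyx
    exact this ▸ hy

variable [Finite G]

theorem q_norm : d.q ∈ Subgroup.normalizer (d.D : Set G) :=
  d.mem_norm_of (by rw [d.q_inv, d.qzq]; exact d.z'_mem) (by rw [d.q_inv, d.qz'q]; exact d.z_mem)

theorem s_norm : d.s ∈ Subgroup.normalizer (d.D : Set G) :=
  d.mem_norm_of (by rw [inv_eq_of_mul_eq_one_right d.s_sq, d.s_z]; exact inv_mem d.z_mem)
    (by rw [d.s_z'.eq, mul_inv_cancel_right]; exact d.z'_mem)

theorem centralizer_z_c_le {g : G} (hz : Commute g d.z) (hc : Commute g d.c) :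
    g ∈ Subgroup.normalizer (d.D : Set G) := by
  obtain ⟨i, σ, hi, rfl⟩ := d.of_comm_z hz
  have hσ : σ * c5 = c5 * σ := by
    apply d.ι_injective
    rw [map_mul, map_mul]
    have h2 : Commute ((d.z ^ i)⁻¹ * (d.z ^ i * d.ι σ)) d.c :=
      ((d.z_c.pow_left i).inv_left).mul_left hc
    rw [inv_mul_cancel_left] at h2
    exact h2
  refine mul_mem (pow_mem ?_ i) (d.mem_norm_of ?_ ?_)
  · exact Subgroup.le_normalizer d.z_mem
  · rw [← (d.z_ι σ).eq, mul_inv_cancel_right]; exact d.z_mem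
  · rw [z', ← map_inv, ← map_mul, ← map_mul]
    rcases comm_c5 σ hσ with h | h <;> rw [h]
    · exact d.z'_mem
    · rw [map_inv]; exact inv_mem d.z'_mem

omit [Finite G] in
theorem q_c_comm : Commute d.q d.c := d.q_c

/-- The centraliser in `C(c)` of a nonidentity element of `D` normalises `D`. -/
theorem centralizer_inf_le {x g : G} (hx : x ∈ d.D) (hx1 : x ≠ 1) (hg : Commute g x)
    (hc : Commute g d.c) : g ∈ Subgroup.normalizer (d.D : Set G) := by
  -- the property is preserved by conjugation inside the normaliser and by inversion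
  have conjP : ∀ (n a : G), n ∈ Subgroup.normalizer (d.D : Set G) →
      (∀ g : G, Commute g a → Commute g d.c → g ∈ Subgroup.normalizer (d.D : Set G)) →
      ∀ g : G, Commute g (n * a * n⁻¹) → Commute g d.c →
        g ∈ Subgroup.normalizer (d.D : Set G) := by
    intro n a hn ha g hg hc
    have hnc : Commute n d.c := Subgroup.mem_centralizer_singleton_iff.1 (d.norm_le_centralizer_c hn)
    have h1 : Commute (n⁻¹ * g * n) a := by
      show n⁻¹ * g * n * a = a * (n⁻¹ * g * n)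
      calc n⁻¹ * g * n * a = n⁻¹ * (g * (n * a * n⁻¹)) * n := by group
        _ = n⁻¹ * ((n * a * n⁻¹) * g) * n := by rw [hg.eq]
        _ = a * (n⁻¹ * g * n) := by group
    have h2 := ha _ h1 ((hnc.inv_left.mul_left hc).mul_left hnc)
    have h3 := mul_mem (mul_mem hn h2) (inv_mem hn)
    rwa [show n * (n⁻¹ * g * n) * n⁻¹ = g by group] at h3
  have hz : ∀ g : G, Commute g d.z → Commute g d.c → g ∈ Subgroup.normalizer (d.D : Set G) :=
    fun g => d.centralizer_z_c_le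
  have hy : ∀ g : G, Commute g (d.z * d.z') → Commute g d.c →
      g ∈ Subgroup.normalizer (d.D : Set G) := fun g h _ =>
    d.cy_le (Subgroup.mem_centralizer_singleton_iff.2 h.eq)
  have hz' := conjP d.q d.z d.q_norm hz
  rw [d.q_inv, d.qzq] at hz'
  have hy' := conjP d.s (d.z * d.z') d.s_norm hy
  rw [show d.s * (d.z * d.z') * d.s⁻¹ = (d.s * d.z * d.s⁻¹) * (d.s * d.z' * d.s⁻¹) by group,
    d.s_z'.eq, mul_inv_cancel_right, inv_eq_of_mul_eq_one_right d.s_sq, d.s_z] at hy'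
  obtain ⟨i, j, hi, hj, rfl⟩ := d.mem_D.1 hx
  have e2 : d.z ^ 2 = d.z⁻¹ := eq_inv_of_mul_eq_one_left (by rw [← pow_succ]; exact d.z_cube)
  have e2' : d.z' ^ 2 = d.z'⁻¹ := eq_inv_of_mul_eq_one_left (by rw [← pow_succ]; exact d.z'_cube)
  interval_cases i <;> interval_cases j <;>
    simp only [e2, e2', pow_zero, pow_one, one_mul, mul_one, ne_eq, not_true_eq_false] at hg hx1
  · exact hz' g hg hc
  · exact hz' g (by simpa using hg.inv_right) hc
  · exact hz g hg hc
  · exact hy g hg hc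
  · refine hy' g ?_ hc
    have h := hg.inv_right
    rwa [mul_inv_rev, inv_inv, (d.z_z'.inv_left).symm.eq] at h
  · exact hz g (by simpa using hg.inv_right) hc
  · exact hy' g hg hc
  · refine hy g ?_ hc
    have h := hg.inv_right
    rwa [mul_inv_rev, inv_inv, inv_inv, d.z_z'.symm.eq] at h

theorem norm_cube_mem {g : G} (hg : g ∈ Subgroup.normalizer (d.D : Set G)) (h3 : g ^ 3 = 1) :
    g ∈ d.D := by
  obtain ⟨f, -, hker⟩ : ∃ f : Subgroup.normalizer (d.D : Set G) →* DihedralGroup 4,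
      Function.Surjective f ∧ f.ker = (Subgroup.centralizer (d.D : Set G)).subgroupOf _ := d.norm_hom
  have h1 : (f ⟨g, hg⟩) ^ 3 = 1 := by
    rw [← map_pow, show (⟨g, hg⟩ : Subgroup.normalizer (d.D : Set G)) ^ 3 = 1 from Subtype.ext h3,
      map_one]
  have hf : ∀ a : DihedralGroup 4, a ^ 3 = 1 → a = 1 := by decide
  have h2 : (⟨g, hg⟩ : Subgroup.normalizer (d.D : Set G)) ∈ f.ker := hf _ h1
  rw [hker, Subgroup.mem_subgroupOf, Subgroup.mem_centralizer_iff] at h2
  rcases d.of_comm_D (h2 _ d.z_mem).symm (h2 _ d.z'_mem).symm with h | ⟨x, hx, hxg⟩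
  · exact h
  · exfalso
    rw [show g = x * d.c from hxg, (d.D_c hx).mul_pow, d.D_cube hx, one_mul, pow_succ, pow_two, d.c_sq, one_mul] at h3
    exact d.c_ne h3

end Data

end Cfsg.Agent.H34.SymEight
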