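import Cfsg.Agent.H34.SymEight.EightEnd
import Cfsg.Agent.H28.ZStar

/-!
# The centraliser of a double transposition lies in the embedded group
-/

set_option autoImplicit false
set_option maxRecDepth 10000
set_option maxHeartbeats 400000

namespace Cfsg.Agent.H34.SymEight

open Equiv Cfsg

theorem pair_fix {α : Type*} {f : Perm α} {n : ℕ} (hn : Odd n) (hf : f ^ n = 1) {a b : α}
    (ha : f a = a ∨ f a = b) (hb : f b = a ∨ f b = b) : f a = a := by
  rcases ha with h | h
  · exact h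
  rcases hb with h' | h'
  · obtain ⟨k, rfl⟩ := hn
    have hk : ∀ k : ℕ, (f ^ (2 * k)) a = a := by
      intro k
      induction k with
      | zero => simp
      | succ k ih =>
        rw [show 2 * (k + 1) = (2 * k + 1) + 1 by ring, pow_succ', pow_succ', Perm.mul_apply,
          Perm.mul_apply, ih, h, h']
    rw [pow_succ'] at hf
    have := congrArg (fun g : Perm α => g a) hf
    simp only [Perm.mul_apply, Perm.one_apply, hk] at this
    exact this
  · rw [f.injective (h.trans h'.symm), h']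

theorem swap_pair : ∀ i j : Fin 8, i ≠ j → swap i j * r8 = r8 * swap i j →
    (swap i j * r8).cycleType = {2} →
    swap i j = swap 0 1 ∨ swap i j = swap 2 3 := by decide +kernel

theorem fixed_facts : (∀ x : Fin 8, r8 x = x ↔ x = 4 ∨ x = 5 ∨ x = 6 ∨ x = 7) ∧
    r8 0 = 1 ∧ r8 1 = 0 ∧ r8 2 = 3 ∧ r8 3 = 2 := by decide +kernel

theorem moved_cases : ∀ x : Fin 8, r8 x ≠ x → x = 0 ∨ x = 1 ∨ x = 2 ∨ x = 3 := by decide +kernel

theorem four_moved : ∀ a p q : Fin 8, r8 a ≠ a → r8 p ≠ p → r8 q ≠ q → p ≠ a → p ≠ r8 a → q ≠ p →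
    q ≠ r8 p → q = a ∨ q = r8 a := by decide +kernel

theorem ab_facts : (swap 0 1 : Perm (Fin 8)) * r8 = swap 2 3 ∧
    r8 * swap 0 1 = swap 0 1 * r8 ∧ t8 * r8 = r8 * t8 ∧
    t8 * swap 2 3 * t8 = swap 0 1 ∧ t8 * t8 = 1 ∧ r8 * r8 = 1 ∧ r8 ≠ 1 ∧
    (swap 0 1 : Perm (Fin 8)) ≠ r8 ∧ swap 4 5 * r8 = r8 * swap 4 5 ∧
    swap 5 6 * r8 = r8 * swap 5 6 ∧ swap 6 7 * r8 = r8 * swap 6 7 ∧
    ((swap 4 5 : Perm (Fin 8)) * r8).cycleType = {2, 2, 2} ∧
    ((swap 5 6 : Perm (Fin 8)) * r8).cycleType = {2, 2, 2} ∧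
    ((swap 6 7 : Perm (Fin 8)) * r8).cycleType = {2, 2, 2} := by decide +kernel

theorem three_facts : ((swap 4 5 : Perm (Fin 8)) * swap 5 6) ^ 3 = 1 ∧
    ((swap 5 6 : Perm (Fin 8)) * swap 6 7) ^ 3 = 1 ∧
    (swap 4 5 : Perm (Fin 8)) * swap 5 6 ≠ 1 ∧ (swap 5 6 : Perm (Fin 8)) * swap 6 7 ≠ 1 := by
  decide +kernel

theorem points_facts : (swap 4 5 * swap 5 6 : Perm (Fin 8)) 4 = 5 ∧
    (swap 4 5 * swap 5 6 : Perm (Fin 8)) 7 = 7 ∧
    (swap 5 6 * swap 6 7 : Perm (Fin 8)) 4 = 4 ∧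
    (swap 5 6 * swap 6 7 : Perm (Fin 8)) 5 = 6 ∧
    (∀ x : Fin 8, r8 x = x → (swap 4 5 * swap 5 6 : Perm (Fin 8)) x = x → x = 7) ∧
    (∀ x : Fin 8, r8 x = x → (swap 5 6 * swap 6 7 : Perm (Fin 8)) x = x → x = 4) := by
  decide +kernel

/-- An element of odd order centralising `r8` and a transposition on its fixed points is trivial. -/
theorem odd_trivial {m : Perm (Fin 8)} {n : ℕ} (hn : Odd n) (hm : m ^ n = 1)
    (hr : m * r8 = r8 * m) (hfix : ∀ x, r8 x = x → m x = x) : m = 1 := by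
  obtain ⟨hF, h0, h1, h2, h3⟩ := fixed_facts
  have hmv : ∀ x, r8 x ≠ x → r8 (m x) ≠ m x := by
    intro x hx h
    apply hx
    apply m.injective
    rw [← Perm.mul_apply, hr, Perm.mul_apply, h]
  have hcomm : ∀ x, r8 (m x) = m (r8 x) := fun x => by
    rw [← Perm.mul_apply, ← hr, Perm.mul_apply]
  -- blocks of `r8` are fixed
  have hinvol : ∀ x, r8 (r8 x) = x := fun x => by
    rw [← Perm.mul_apply, ab_facts.2.2.2.2.2.1, Perm.one_apply]
  have hblock : ∀ a : Fin 8, r8 a ≠ a → m a = a ∨ m a = r8 a := by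
    intro a ha
    by_contra hcon
    push Not at hcon
    obtain ⟨k, rfl⟩ := hn
    have h2 : m (m a) = a ∨ m (m a) = r8 a := four_moved a (m a) (m (m a)) ha (hmv a ha)
      (hmv _ (hmv a ha)) hcon.1 hcon.2 (fun h => hcon.1 (m.injective h))
      (fun h => hcon.2 (m.injective (by rw [h, hcomm])))
    have hkey : ∀ i : ℕ, (m ^ (2 * i)) a = a ∨ (m ^ (2 * i)) a = r8 a := by
      intro i
      induction i with
      | zero => left; simp
      | succ i ih =>
        rw [show 2 * (i + 1) = (2 * i + 1) + 1 by ring, pow_succ', pow_succ', Perm.mul_apply,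
          Perm.mul_apply]
        rcases ih with h | h <;> rw [h]
        · exact h2
        · rw [← hcomm, ← hcomm]
          rcases h2 with h' | h' <;> rw [h']
          · exact Or.inr rfl
          · exact Or.inl (hinvol a)
    have h := congrArg (fun g : Perm (Fin 8) => g a) hm
    rw [pow_succ'] at h
    simp only [Perm.mul_apply, Perm.one_apply] at h
    rcases hkey k with hk | hk <;> rw [hk] at h
    · exact hcon.1 h
    · rw [← hcomm] at h
      have := congrArg r8 h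
      rw [hinvol] at this
      exact hcon.2 this
  refine Equiv.ext fun x => ?_
  rw [Perm.one_apply]
  by_cases hx : r8 x = x
  · exact hfix x hx
  · have hxx : r8 (r8 x) = x := by
      rw [← Perm.mul_apply, ab_facts.2.2.2.2.2.1, Perm.one_apply]
    have h1 := hblock (r8 x) (by rw [hxx]; exact Ne.symm hx)
    rw [hxx] at h1
    exact pair_fix hn hm (hblock x hx) h1.symm

theorem fixed_of_swap {m : Perm (Fin 8)} {n : ℕ} (hn : Odd n) (hm : m ^ n = 1)
    (hr : m * r8 = r8 * m) {i j k l : Fin 8} (hij : i ≠ j) (hkl : k ≠ l)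
    (hall : ∀ x, r8 x = x ↔ x = i ∨ x = j ∨ x = k ∨ x = l)
    (hki : k ≠ i) (hkj : k ≠ j) (hli : l ≠ i) (hlj : l ≠ j)
    (ht : m * swap i j = swap i j * m) : ∀ x, r8 x = x → m x = x := by
  have hfixm : ∀ x, r8 x = x → r8 (m x) = m x := fun x hx => by
    rw [← Perm.mul_apply, ← hr, Perm.mul_apply, hx]
  have hset : ∀ x, (m x = i ∨ m x = j) ↔ (x = i ∨ x = j) := by
    intro x
    have h : swap i j (m x) = m (swap i j x) := by
      rw [← Perm.mul_apply, ← ht, Perm.mul_apply]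
    constructor
    · intro hx
      by_contra hcon
      push Not at hcon
      rw [Equiv.swap_apply_of_ne_of_ne hcon.1 hcon.2] at h
      rcases hx with hx | hx <;> rw [hx] at h <;> simp [hij, Ne.symm hij] at h
    · intro hx
      by_contra hcon
      push Not at hcon
      rw [Equiv.swap_apply_of_ne_of_ne hcon.1 hcon.2] at h
      have h2 := m.injective h
      rcases hx with rfl | rfl <;> simp [hij, Ne.symm hij] at h2
  have hkl' : ∀ x, (x = k ∨ x = l) → (m x = k ∨ m x = l) := by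
    intro x hx
    have h1 : r8 x = x := (hall x).2 (Or.inr (Or.inr hx))
    rcases (hall _).1 (hfixm x h1) with h | h | h
    · exfalso
      rcases (hset x).1 (Or.inl h) with h' | h' <;> rcases hx with rfl | rfl <;> simp_all
    · exfalso
      rcases (hset x).1 (Or.inr h) with h' | h' <;> rcases hx with rfl | rfl <;> simp_all
    · exact h
  intro x hx
  rcases (hall x).1 hx with rfl | rfl | rfl | rfl
  · exact pair_fix hn hm ((hset x).2 (Or.inl rfl)) ((hset j).2 (Or.inr rfl))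
  · exact pair_fix hn hm ((hset x).2 (Or.inr rfl)).symm ((hset i).2 (Or.inl rfl)).symm
  · exact pair_fix hn hm (hkl' x (Or.inl rfl)) (hkl' l (Or.inr rfl))
  · exact pair_fix hn hm (hkl' x (Or.inr rfl)).symm (hkl' k (Or.inl rfl)).symm

namespace EightData

variable {G : Type*} [Group G] [Finite G] (e : EightData G)

theorem closed_r8 : e.Closed r8 := by
  classical
  obtain ⟨hab, hra, htr, htb, ht2, hr2, hr1, har, h45, h56, h67, hc45, hc56, hc67⟩ := ab_facts
  obtain ⟨hF, -⟩ := fixed_facts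
  obtain ⟨hx3, hy3, hx1, hy1⟩ := three_facts
  set R := Subgroup.centralizer ({e.Φ r8} : Set G) with hR
  have hmemR : ∀ {g : G}, g ∈ R ↔ Commute g (e.Φ r8) := fun {g} => Subgroup.mem_centralizer_singleton_iff
  have imR : ∀ {x : Perm (Fin 8)}, x * r8 = r8 * x → e.Φ x ∈ R :=
    fun h => hmemR.2 ((show Commute _ r8 from h).map e.Φ)
  set a := e.Φ (swap 0 1) with ha
  set r := e.Φ r8 with hr
  have har' : a * r = e.Φ (swap 2 3) := by rw [ha, hr, ← map_mul, hab]
  -- elements fixing the pair `a`, `a r`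
  have hfix : ∀ g : G, g * a * g⁻¹ = a ∨ g * a * g⁻¹ = a * r → g ∈ e.Φ.range := by
    intro g h
    rcases h with h | h
    · exact e.cent_isSwap ⟨0, 1, by decide, rfl⟩
        (Subgroup.mem_centralizer_singleton_iff.2 (mul_inv_eq_iff_eq_mul.1 h))
    · have h2 : e.Φ t8 * g * a * (e.Φ t8 * g)⁻¹ = a := by
        rw [show e.Φ t8 * g * a * (e.Φ t8 * g)⁻¹ = e.Φ t8 * (g * a * g⁻¹) * (e.Φ t8)⁻¹ by group, h,
          har', ← map_inv, inv_eq_of_mul_eq_one_right ht2, ← map_mul, ← map_mul, htb]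
      obtain ⟨x, hx⟩ := e.cent_isSwap ⟨0, 1, by decide, rfl⟩
        (Subgroup.mem_centralizer_singleton_iff.2 (mul_inv_eq_iff_eq_mul.1 h2))
      exact ⟨t8 * x, by rw [map_mul, hx, ← mul_assoc, ← map_mul, ht2, map_one, one_mul]⟩
  -- the quotient
  let rR : R := ⟨r, hmemR.2 (Commute.refl _)⟩
  have hrR2 : rR ^ 2 = 1 := Subtype.ext (by
    show r ^ 2 = 1
    rw [pow_two, hr, ← map_mul, hr2, map_one])
  let N0 := Subgroup.zpowers rR
  haveI : N0.Normal := by
    refine ⟨fun n hn g => ?_⟩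
    obtain ⟨k, rfl⟩ := Subgroup.mem_zpowers_iff.1 hn
    have hgc : Commute g rR := Subtype.ext (hmemR.1 g.2).eq
    rw [(hgc.zpow_right k).eq, mul_inv_cancel_right]
    exact zpow_mem (Subgroup.mem_zpowers _) k
  have hN0 : ∀ x : R, x ∈ N0 ↔ (x : G) = 1 ∨ (x : G) = r := by
    intro x
    constructor
    · intro hx
      obtain ⟨k, rfl⟩ := Subgroup.mem_zpowers_iff.1 hx
      rcases Int.even_or_odd k with ⟨m, rfl⟩ | ⟨m, rfl⟩
      · left
        rw [← two_mul, zpow_mul, zpow_ofNat, hrR2, one_zpow]; rfl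
      · right
        rw [zpow_add, zpow_mul, zpow_ofNat, hrR2, one_zpow, one_mul, zpow_one]
    · rintro (h | h)
      · rw [show x = 1 from Subtype.ext h]; exact one_mem _
      · rw [show x = rR from Subtype.ext h]; exact Subgroup.mem_zpowers _
  set π := QuotientGroup.mk' N0 with hπ
  have hπeq : ∀ u v : R, π u = π v ↔ ((v : G) = u ∨ (v : G) = u * r) := by
    intro u v
    rw [hπ, QuotientGroup.mk'_apply, QuotientGroup.mk'_apply, QuotientGroup.eq, hN0,
      Subgroup.coe_mul, Subgroup.coe_inv, inv_mul_eq_one, inv_mul_eq_iff_eq_mul]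
    exact or_congr_left eq_comm
  let aR : R := ⟨a, imR hra.symm⟩
  have hafu : e.Fu a := e.fu_swap (by decide)
  have hiso : Cfsg.Agent.H28.IsIsolatedInvolution (π aR) := by
    refine ⟨?_, ?_⟩
    · haveI : Fact (Nat.Prime 2) := ⟨Nat.prime_two⟩
      refine orderOf_eq_prime ?_ ?_
      · rw [← map_pow, show aR ^ 2 = 1 from Subtype.ext (by
          show a ^ 2 = 1
          rw [pow_two, ha, ← map_mul, swap_mul_self, map_one]), map_one]
      · intro h
        rcases (hN0 _).1 ((QuotientGroup.eq_one_iff _).1 h) with h' | h'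
        · have := e.inj (h'.trans (map_one e.Φ).symm)
          revert this; decide +kernel
        · exact har (e.inj h')
    · intro gb hcb
      obtain ⟨g, rfl⟩ := QuotientGroup.mk'_surjective N0 gb
      set b : R := g * aR * g⁻¹ with hb
      have hπb : π b = π g * π aR * (π g)⁻¹ := by rw [hb, map_mul, map_mul, map_inv]
      rw [← hπb] at hcb ⊢
      -- `b` maps `a` into the pair, so lies in the range
      have hbconj : (b : G) * a * (b : G)⁻¹ = a ∨ (b : G) * a * (b : G)⁻¹ = a * r := by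
        have h1 : π aR = π (b * aR * b⁻¹) := by
          rw [map_mul, map_mul, map_inv, ← hcb.eq, mul_inv_cancel_right]
        simpa [aR] using (hπeq _ _).1 h1
      obtain ⟨s, hs⟩ := hfix _ hbconj
      have hbg : (b : G) = (g : G) * a * (g : G)⁻¹ := by simp [hb, aR]
      have hsw := e.isSwap_of_fu (x := s) (by rw [hs, hbg]; exact e.fu_conj hafu _)
      have hsr : (s * r8).IsSwap := by
        refine e.isSwap_of_fu ?_
        rw [map_mul, hs, hbg, ← hr, mul_assoc _ (g : G)⁻¹, ((hmemR.1 g.2).inv_left).eq,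
          show (g : G) * a * (r * (g : G)⁻¹) = (g : G) * (a * r) * (g : G)⁻¹ by group, har']
        exact e.fu_conj (e.fu_swap (by decide)) _
      obtain ⟨i, j, hij, rfl⟩ := hsw
      have hct : (swap i j * r8).cycleType = {2} := by
        have h := isSwap_iff.1 hsr
        rw [Perm.isConj_iff_cycleType_eq, ct_facts.1] at h
        exact h.symm
      have hscomm : swap i j * r8 = r8 * swap i j := e.inj (by
        rw [map_mul, map_mul, hs]; exact (hmemR.1 b.2).eq)
      symm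
      rw [hπeq]
      rcases swap_pair i j hij hscomm hct with h | h <;> rw [h] at hs
      · exact Or.inl hs.symm
      · exact Or.inr (hs.symm.trans har'.symm)
  set O := Cfsg.pPrimeCore 2 (R ⧸ N0) with hO
  have hOodd : ∀ w ∈ O, Odd (orderOf w) := by
    intro w hw
    have h : Nat.Coprime (Nat.card O) 2 := Cfsg.Agent.H19.pPrimeCore_coprime 2
    have hd : orderOf w ∣ Nat.card O := Subgroup.orderOf_dvd_natCard O hw
    exact Nat.coprime_two_right.1 (h.coprime_dvd_left hd)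
  -- elements of the range in the odd core fixing the four points are trivial
  have trivO : ∀ (g : R), π g ∈ O → ∀ m : Perm (Fin 8), e.Φ m = (g : G) →
      (∀ (m' : Perm (Fin 8)) (n : ℕ), Odd n → m' ^ n = 1 → m' * r8 = r8 * m' →
        (∀ k : ℕ, m' = m ^ k → ∀ x, r8 x = x → m' x = x)) → π g = 1 := by
    intro g hg m hm hfixpts
    obtain ⟨n, hn, hn1⟩ : ∃ n, Odd n ∧ π g ^ n = 1 := ⟨_, hOodd _ hg, pow_orderOf_eq_one _⟩
    have hmr : m * r8 = r8 * m := e.inj (by rw [map_mul, map_mul, hm]; exact (hmemR.1 g.2).eq)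
    have hg2 : (g ^ n) ^ 2 = 1 := by
      rw [← map_pow] at hn1
      obtain ⟨k, hk⟩ := Subgroup.mem_zpowers_iff.1 ((QuotientGroup.eq_one_iff _).1 hn1)
      rw [← hk, ← zpow_natCast, ← zpow_mul, mul_comm, zpow_mul]
      rw [show rR ^ ((2 : ℕ) : ℤ) = 1 by rw [zpow_natCast]; exact hrR2, one_zpow]
    have hm2 : (m ^ 2) ^ n = 1 := e.inj (by
      rw [map_pow, map_pow, hm, map_one, ← pow_mul, mul_comm, pow_mul]
      exact congrArg Subtype.val hg2)
    have hm2r : m ^ 2 * r8 = r8 * m ^ 2 := ((show Commute m r8 from hmr).pow_left 2).eq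
    have h1 : m ^ 2 = 1 :=
      odd_trivial hn hm2 hm2r (hfixpts _ n hn hm2 hm2r 2 rfl)
    have hg21 : g ^ 2 = 1 := Subtype.ext (by
      show (g : G) ^ 2 = 1
      rw [← hm, ← map_pow, h1, map_one])
    have hπ2 : π g ^ 2 = 1 := by rw [← map_pow, hg21, map_one]
    rw [← orderOf_eq_one_iff]
    exact Nat.eq_one_of_dvd_coprimes ((Nat.coprime_two_left.2 hn))
      (orderOf_dvd_of_pow_eq_one hπ2) (orderOf_dvd_of_pow_eq_one hn1)
  -- a transposition on the fixed points inverts the odd core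
  have hinv : ∀ i j k l : Fin 8, i ≠ j → k ≠ l →
      (∀ x, r8 x = x ↔ x = i ∨ x = j ∨ x = k ∨ x = l) → k ≠ i → k ≠ j → l ≠ i → l ≠ j →
      ∀ (ht : swap i j * r8 = r8 * swap i j), (swap i j * r8).cycleType = {2, 2, 2} →
      ∀ w ∈ O, π ⟨_, imR ht⟩ * w * (π ⟨_, imR ht⟩)⁻¹ = w⁻¹ := by
    intro i j k l hij hkl hall hki hkj hli hlj ht hct
    set t : R := ⟨_, imR ht⟩ with htdef
    have hnormal : O.Normal := inferInstance
    have ht2 : π t * π t = 1 := by
      rw [← map_mul, show t * t = 1 from Subtype.ext (by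
        show e.Φ (swap i j) * e.Φ (swap i j) = 1
        rw [← map_mul, swap_mul_self, map_one]), map_one]
    have hone : ∀ w ∈ O, π t * w * (π t)⁻¹ = w → w = 1 := by
      intro w hw hfw
      obtain ⟨g, rfl⟩ := QuotientGroup.mk'_surjective N0 w
      rw [← map_inv, ← map_mul, ← map_mul] at hfw
      have hgc : π t = π (g * t * g⁻¹) := by
        rw [map_mul, map_mul, map_inv]
        have h2 : π t * π g = π g * π t := by
          rw [← mul_inv_eq_iff_eq_mul, ← map_inv, ← map_mul, ← map_mul]; exact hfw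
        rw [← h2, mul_inv_cancel_right]
      rcases (hπeq _ _).1 hgc with h | h
      · simp only [Subgroup.coe_mul, Subgroup.coe_inv] at h
        obtain ⟨m, hm⟩ := e.cent_isSwap ⟨i, j, hij, rfl⟩
          (Subgroup.mem_centralizer_singleton_iff.2 (mul_inv_eq_iff_eq_mul.1 h))
        refine trivO g hw m hm fun m' n hn hm' hm'r k' hk' => ?_
        refine fixed_of_swap hn hm' hm'r hij hkl hall hki hkj hli hlj ?_
        have hmt : Commute m (swap i j) := e.inj (by
          rw [map_mul, map_mul, hm]; exact mul_inv_eq_iff_eq_mul.1 h)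
        rw [hk']; exact (hmt.pow_left k').eq
      · exfalso
        simp only [Subgroup.coe_mul, Subgroup.coe_inv] at h
        refine e.not_fu_of_ct (x := swap i j * r8) (by rw [hct]; decide) ?_
        rw [map_mul, ← hr, show e.Φ (swap i j) * r = (t : G) * r from rfl, ← h]
        exact e.fu_conj (e.fu_swap hij) _
    intro w hw
    have hmemc : ∀ v ∈ O, π t * v * (π t)⁻¹ ∈ O := fun v hv => hnormal.conj_mem v hv _
    let F : O → O := fun v => ⟨(v : R ⧸ N0)⁻¹ * (π t * v * (π t)⁻¹), mul_mem (inv_mem v.2) (hmemc _ v.2)⟩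
    have hFi : Function.Injective F := by
      intro u v h
      have h' : (u : R ⧸ N0)⁻¹ * (π t * u * (π t)⁻¹) = (v : R ⧸ N0)⁻¹ * (π t * v * (π t)⁻¹) :=
        Subtype.ext_iff.1 h
      have h3 := hone ((v : R ⧸ N0) * (u : R ⧸ N0)⁻¹) (mul_mem v.2 (inv_mem u.2)) (by
        calc π t * ((v : R ⧸ N0) * (u : R ⧸ N0)⁻¹) * (π t)⁻¹
            = (π t * v * (π t)⁻¹) * (π t * u * (π t)⁻¹)⁻¹ := by group
          _ = (π t * v * (π t)⁻¹) *
              ((u : R ⧸ N0) * ((u : R ⧸ N0)⁻¹ * (π t * u * (π t)⁻¹)))⁻¹ := by rw [mul_inv_cancel_left]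
          _ = _ := by rw [h']; group)
      exact Subtype.ext (mul_inv_eq_one.1 h3).symm
    obtain ⟨u, hu⟩ := (Finite.injective_iff_surjective.1 hFi) ⟨w, hw⟩
    have hu' : (u : R ⧸ N0)⁻¹ * (π t * u * (π t)⁻¹) = w := Subtype.ext_iff.1 hu
    rw [← hu', inv_eq_of_mul_eq_one_right ht2]
    calc π t * ((u : R ⧸ N0)⁻¹ * (π t * u * π t)) * π t
        = π t * (u : R ⧸ N0)⁻¹ * π t * u * (π t * π t) := by group
      _ = ((u : R ⧸ N0)⁻¹ * (π t * u * π t))⁻¹ := by
          rw [ht2, mul_inv_rev, mul_inv_rev, mul_inv_rev, inv_inv, inv_eq_of_mul_eq_one_right ht2]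
          group
  -- the odd core is trivial
  have hO1 : ∀ w ∈ O, w = 1 := by
    intro w hw
    obtain ⟨g, rfl⟩ := QuotientGroup.mk'_surjective N0 w
    obtain ⟨n45, n67, n64, n65, n74, n75, n56, n47, n46, n76, n57⟩ : (4 : Fin 8) ≠ 5 ∧ (6 : Fin 8) ≠ 7 ∧
        (6 : Fin 8) ≠ 4 ∧ (6 : Fin 8) ≠ 5 ∧ (7 : Fin 8) ≠ 4 ∧ (7 : Fin 8) ≠ 5 ∧ (5 : Fin 8) ≠ 6 ∧
        (4 : Fin 8) ≠ 7 ∧ (4 : Fin 8) ≠ 6 ∧ (7 : Fin 8) ≠ 6 ∧ (5 : Fin 8) ≠ 7 := by decide
    have hF56 : ∀ x : Fin 8, r8 x = x ↔ x = 5 ∨ x = 6 ∨ x = 4 ∨ x = 7 := fun x => by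
      rw [hF x]; constructor <;> rintro (h | h | h | h) <;> simp only [h, eq_self_iff_true, or_true, true_or]
    have hF67 : ∀ x : Fin 8, r8 x = x ↔ x = 6 ∨ x = 7 ∨ x = 4 ∨ x = 5 := fun x => by
      rw [hF x]; constructor <;> rintro (h | h | h | h) <;> simp only [h, eq_self_iff_true, or_true, true_or]
    have i45 := hinv (4 : Fin 8) (5 : Fin 8) (6 : Fin 8) (7 : Fin 8) n45 n67 hF n64 n65 n74 n75 h45 hc45
    have i56 := hinv (5 : Fin 8) (6 : Fin 8) (4 : Fin 8) (7 : Fin 8) n56 n47 hF56 n45 n46 n75 n76 h56 hc56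
    have i67 := hinv (6 : Fin 8) (7 : Fin 8) (4 : Fin 8) (5 : Fin 8) n67 n45 hF67 n46 n47 n56 n57 h67 hc67
    -- products of two of them centralise the odd core
    have hthree : ∀ (s t : Perm (Fin 8)) (hs : s * r8 = r8 * s) (ht : t * r8 = r8 * t),
        (s * t) ^ 3 = 1 → s * t ≠ 1 →
        (∀ w ∈ O, π ⟨_, imR hs⟩ * w * (π ⟨_, imR hs⟩)⁻¹ = w⁻¹) →
        (∀ w ∈ O, π ⟨_, imR ht⟩ * w * (π ⟨_, imR ht⟩)⁻¹ = w⁻¹) →
        ∃ m : Perm (Fin 8), e.Φ m = (g : G) ∧ m * (s * t) = s * t * m := by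
      intro s t hs ht h3 h1 is it
      set S : R := ⟨_, imR hs⟩
      set T : R := ⟨_, imR ht⟩
      have hc : π (g * (S * T) * g⁻¹) = π (S * T) := by
        have e1 : π S * π T * π g * (π S * π T)⁻¹ = π g := by
          rw [show π S * π T * π g * (π S * π T)⁻¹ = π S * (π T * π g * (π T)⁻¹) * (π S)⁻¹ by group,
            it _ hw, is _ (inv_mem hw), inv_inv]
        rw [map_mul, map_mul, map_mul, map_inv]
        rw [mul_inv_eq_iff_eq_mul] at e1
        rw [← e1, mul_inv_cancel_right]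
      rcases (hπeq _ _).1 hc.symm with h | h
      · simp only [Subgroup.coe_mul, Subgroup.coe_inv] at h
        have hcomm : Commute (g : G) (e.Φ (s * t)) := by
          rw [map_mul]; exact mul_inv_eq_iff_eq_mul.1 h
        obtain ⟨m, hm⟩ := e.cent_three _ h3 h1 (Subgroup.mem_centralizer_singleton_iff.2 hcomm.eq)
        exact ⟨m, hm, e.inj (by rw [map_mul e.Φ m, map_mul e.Φ (s * t), hm]; exact hcomm.eq)⟩
      · exfalso
        simp only [Subgroup.coe_mul, Subgroup.coe_inv] at h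
        have hc3 : ((g : G) * e.Φ (s * t) * (g : G)⁻¹) ^ 3 = 1 := by
          rw [conj_pow, ← map_pow, h3, map_one, mul_one, mul_inv_cancel]
        rw [show (g : G) * e.Φ (s * t) * (g : G)⁻¹ = e.Φ (s * t) * r by
          rw [map_mul]; exact h, hr, ← map_mul, ← map_pow] at hc3
        have hst : Commute (s * t) r8 := (show Commute s r8 from hs).mul_left ht
        have h0 := e.inj (hc3.trans (map_one e.Φ).symm)
        rw [hst.mul_pow, h3, one_mul, pow_succ, pow_two, hr2, one_mul] at h0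
        exact hr1 h0
    obtain ⟨m, hm, hmx⟩ := hthree _ _ h45 h56 hx3 hx1 i45 i56
    obtain ⟨m', hm', hmy⟩ := hthree _ _ h56 h67 hy3 hy1 i56 i67
    have hmm : m' = m := e.inj (hm'.trans hm.symm)
    rw [hmm] at hmy
    refine trivO g hw m hm fun u n hn hun hur k hk => ?_
    obtain ⟨p1, p2, p3, p4, p5, p6⟩ := points_facts
    have hux : Commute u (swap 4 5 * swap 5 6) := hk ▸ (show Commute m _ from hmx).pow_left k
    have huy : Commute u (swap 5 6 * swap 6 7) := hk ▸ (show Commute m _ from hmy).pow_left k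
    have app : ∀ {x : Perm (Fin 8)}, Commute u x → ∀ p, x (u p) = u (x p) := fun {x} h p => by
      rw [← Perm.mul_apply, ← h.eq, Perm.mul_apply]
    have hr' : ∀ p, r8 p = p → r8 (u p) = u p := fun p hp => by rw [app hur, hp]
    have f4 : u 4 = 4 := p6 _ (hr' 4 ((hF 4).2 (Or.inl rfl))) (by rw [app huy, p3])
    have f7 : u 7 = 7 := p5 _ (hr' 7 ((hF 7).2 (Or.inr (Or.inr (Or.inr rfl))))) (by rw [app hux, p2])
    have f5 : u 5 = 5 := by rw [← p1, ← app hux, f4]
    have f6 : u 6 = 6 := by rw [← p4, ← app huy, f5]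
    intro x hx
    rcases (hF x).1 hx with rfl | rfl | rfl | rfl <;> assumption
  -- conclusion
  intro g hg
  have hcom := hO1 _ (Cfsg.Agent.H28.zStar hiso (π ⟨g, hg⟩))
  refine hfix g ?_
  have h1 : π aR = π (⟨g, hg⟩ * aR * (⟨g, hg⟩ : R)⁻¹) := by
    rw [mul_inv_eq_one, mul_inv_eq_iff_eq_mul] at hcom
    rw [map_mul, map_mul, map_inv, ← hcom, mul_inv_cancel_right]
  simpa [aR] using (hπeq _ _).1 h1

end EightData

end Cfsg.Agent.H34.SymEight
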