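import Mathlib

/-!
# The normalised 3-local data for the Sym(8) recognition theorem

`Data G` packages the hypotheses: the embedded `Sym(3) × Sym(5)` (the normaliser of `⟨z⟩`), an involution
`q` exchanging `z` with the 3-cycle `z'` of the degree five part, and the orders at the third line.
-/

set_option autoImplicit false

namespace Cfsg.Agent.H34.SymEight

open Equiv

/-- The 3-cycle on `0, 1, 2` in degree five. -/
def t5 : Perm (Fin 5) := swap 0 1 * swap 1 2

/-- The transposition fixing `0, 1, 2` in degree five. -/
def c5 : Perm (Fin 5) := swap 3 4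

/-- A 3-cycle in degree three. -/
def u3 : Perm (Fin 3) := swap 0 1 * swap 1 2

/-- The transposition in degree three. -/
def w3 : Perm (Fin 3) := swap 0 1

theorem t5_pow_three : t5 ^ 3 = 1 := by decide
theorem t5_ne_one : t5 ≠ 1 := by decide
theorem c5_sq : c5 * c5 = 1 := by decide
theorem c5_comm : c5 * t5 = t5 * c5 := by decide
theorem t5_sign : Perm.sign t5 = 1 := by decide
theorem u3_pow_three : u3 ^ 3 = 1 := by decide
theorem u3_ne_one : u3 ≠ 1 := by decide
theorem w3_inv : w3 * u3 = u3⁻¹ * w3 := by decide
theorem w3_sq : w3 * w3 = 1 := by decide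

/-- The normalised data. -/
structure Data (G : Type*) [Group G] where
  /-- the degree three factor of the normaliser of `z` -/
  ιL : Perm (Fin 3) →* G
  /-- the degree five factor -/
  ι : Perm (Fin 5) →* G
  /-- exchanges `z` and `z'` -/
  q : G
  comm : ∀ a b, Commute (ιL a) (ι b)
  inj : ∀ a b, ιL a * ι b = 1 → a = 1 ∧ b = 1
  mem_cz : ∀ g : G, Commute g (ιL u3) → ∃ (i : ℕ) (σ : Perm (Fin 5)), g = ιL u3 ^ i * ι σ
  q_sq : q * q = 1
  q_z : q * ιL u3 * q = ι t5
  q_c : Commute q (ι c5)
  not_27 : ¬ 27 ∣ Nat.card G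
  card_norm : Nat.card (Subgroup.normalizer
      (Subgroup.closure {ιL u3, ι t5} : Set G)) = 144
  norm_hom : ∃ f : Subgroup.normalizer (Subgroup.closure {ιL u3, ι t5} : Set G) →* DihedralGroup 4,
      Function.Surjective f ∧
      f.ker = (Subgroup.centralizer (Subgroup.closure {ιL u3, ι t5} : Set G)).subgroupOf _
  card_cy : Nat.card (Subgroup.centralizer ({ιL u3 * ι t5} : Set G)) = 36
  cy_le : Subgroup.centralizer ({ιL u3 * ι t5} : Set G) ≤
      Subgroup.normalizer (Subgroup.closure {ιL u3, ι t5} : Set G)
  cy_sq : ∀ g ∈ Subgroup.centralizer ({ιL u3 * ι t5} : Set G),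
      g * g ∈ Subgroup.closure {ιL u3, ι t5}
  card_ny : Nat.card (Subgroup.normalizer (Subgroup.zpowers (ιL u3 * ι t5) : Set G)) = 72
  ny_le : Subgroup.normalizer (Subgroup.zpowers (ιL u3 * ι t5) : Set G) ≤
      Subgroup.normalizer (Subgroup.closure {ιL u3, ι t5} : Set G)
  ny_sq : ∀ g ∈ Subgroup.normalizer (Subgroup.zpowers (ιL u3 * ι t5) : Set G),
      g * g ∈ Subgroup.closure {ιL u3, ι t5}

namespace Data

variable {G : Type*} [Group G] (d : Data G)

/-- The element of order three centralised by the degree five factor. -/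
def z : G := d.ιL u3
/-- The element of order three in the degree five factor. -/
def z' : G := d.ι t5
/-- The involution inverting `z`, centralising the degree five factor. -/
def s : G := d.ιL w3
/-- The involution centralising the Sylow 3-subgroup. -/
def c : G := d.ι c5
/-- The Sylow 3-subgroup. -/
def D : Subgroup G := Subgroup.closure {d.z, d.z'}

end Data

end Cfsg.Agent.H34.SymEight
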