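import Mathlib

/-!
# An embedded symmetric group of degree eight with controlled transpositions

`EightData G` is the outcome of the construction in the case where the centraliser of `c` is twice
`Sym(6)`: a copy of `Sym(8)` containing the centralisers of its transpositions and of its elements
of order three, meeting the class of a transposition in transpositions only, and a linear character
of `G` extending the sign.
-/

set_option autoImplicit false

namespace Cfsg.Agent.H34.SymEight

open Equiv

/-- A copy of `Sym(8)` with controlled transpositions. -/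
structure EightData (G : Type*) [Group G] where
  /-- the embedding -/
  Φ : Perm (Fin 8) →* G
  inj : Function.Injective Φ
  /-- a character extending the sign -/
  T : G →* ℤˣ
  T_sign : ∀ x, T (Φ x) = Perm.sign x
  cent_swap : Subgroup.centralizer ({Φ (swap 6 7)} : Set G) ≤ Φ.range
  fused : ∀ (g : G) (x : Perm (Fin 8)), g * Φ (swap 6 7) * g⁻¹ = Φ x → x.IsSwap
  cent_three : ∀ x : Perm (Fin 8), x ^ 3 = 1 → x ≠ 1 →
    Subgroup.centralizer ({Φ x} : Set G) ≤ Φ.range

namespace EightData

variable {G : Type*} [Group G] (e : EightData G)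

theorem cent_isSwap {x : Perm (Fin 8)} (hx : x.IsSwap) :
    Subgroup.centralizer ({e.Φ x} : Set G) ≤ e.Φ.range := by
  obtain ⟨i, j, hij, rfl⟩ := hx
  obtain ⟨k, hk⟩ := isConj_iff.1 (Perm.isConj_swap (show (6 : Fin 8) ≠ 7 by decide) hij)
  intro g hg
  have h := Subgroup.mem_centralizer_singleton_iff.1 hg
  rw [← hk, map_mul, map_mul, map_inv] at h
  have h1 : (e.Φ k)⁻¹ * g * e.Φ k ∈ Subgroup.centralizer ({e.Φ (swap 6 7)} : Set G) := by
    rw [Subgroup.mem_centralizer_singleton_iff]
    calc (e.Φ k)⁻¹ * g * e.Φ k * e.Φ (swap 6 7)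
        = (e.Φ k)⁻¹ * (g * (e.Φ k * e.Φ (swap 6 7) * (e.Φ k)⁻¹)) * e.Φ k := by group
      _ = (e.Φ k)⁻¹ * (e.Φ k * e.Φ (swap 6 7) * (e.Φ k)⁻¹ * g) * e.Φ k := by rw [h]
      _ = e.Φ (swap 6 7) * ((e.Φ k)⁻¹ * g * e.Φ k) := by group
  obtain ⟨m, hm⟩ := e.cent_swap h1
  exact ⟨k * m * k⁻¹, by rw [map_mul, map_mul, map_inv, hm]; group⟩

end EightData

end Cfsg.Agent.H34.SymEight
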