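import Cfsg.Agent.H34.SymEight.Eight

/-!
# The embedded symmetric group of degree eight is the whole group

Assuming the centraliser of a double transposition lies inside, all involution centralisers do.
-/

set_option autoImplicit false
set_option maxRecDepth 10000

namespace Cfsg.Agent.H34.SymEight

open Equiv

/-- A transposition. -/
def a8 : Perm (Fin 8) := swap 6 7

/-- A double transposition. -/
def r8 : Perm (Fin 8) := swap 0 1 * swap 2 3

/-- A triple transposition. -/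
def e3 : Perm (Fin 8) := swap 0 1 * swap 2 3 * swap 4 5

/-- A fixed-point-free involution. -/
def e4 : Perm (Fin 8) := swap 0 1 * swap 2 3 * swap 4 5 * swap 6 7

/-- Another double transposition commuting with `e4`. -/
def t8 : Perm (Fin 8) := swap 0 2 * swap 1 3

/-- An element of order eight with fourth power of type `e4`. -/
def p8 : Perm (Fin 8) := finRotate 8

theorem ct_facts : a8.cycleType = {2} ∧ r8.cycleType = {2, 2} ∧ e3.cycleType = {2, 2, 2} ∧
    e4.cycleType = {2, 2, 2, 2} ∧ t8.cycleType = {2, 2} ∧ (t8 * e4).cycleType = {2, 2, 2, 2} ∧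
    (p8 ^ 4).cycleType = {2, 2, 2, 2} := by decide +kernel

theorem sign_facts : Perm.sign a8 = -1 ∧ Perm.sign r8 = 1 ∧ Perm.sign e3 = -1 ∧
    Perm.sign e4 = 1 := by decide +kernel

theorem comm_facts : a8 * e3 = e3 * a8 ∧ swap 0 1 * e3 = e3 * swap 0 1 ∧
    t8 * e4 = e4 * t8 ∧ a8 * e4 = e4 * a8 ∧ (a8 * e3).cycleType = {2, 2, 2, 2} ∧
    ((swap 0 1 : Perm (Fin 8)) * e3).cycleType = {2, 2} ∧ a8 * a8 = 1 ∧
    (swap 0 1 : Perm (Fin 8)) ≠ a8 := by decide +kernel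

theorem swap_a8_comm : ∀ i j : Fin 8, i ≠ j → swap i j * a8 = a8 * swap i j → swap i j ≠ a8 →
    (a8 * swap i j).cycleType = {2, 2} := by decide +kernel

theorem swap_e3_comm : ∀ i j : Fin 8, i ≠ j → swap i j * e3 = e3 * swap i j → swap i j ≠ a8 →
    (swap i j * e3).cycleType = {2, 2} := by decide +kernel

theorem swap_e4_comm : ∀ i j : Fin 8, i ≠ j → swap i j * e4 = e4 * swap i j →
    ∃ k ∈ [(1 : Perm (Fin 8)), swap 0 6 * swap 1 7, swap 2 6 * swap 3 7, swap 4 6 * swap 5 7],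
      k * e4 = e4 * k ∧ k * a8 * k⁻¹ = swap i j := by decide +kernel

theorem invol_cases8 {x : Perm (Fin 8)} (hx : x * x = 1) (hx1 : x ≠ 1) :
    IsConj a8 x ∨ IsConj r8 x ∨ IsConj e3 x ∨ IsConj e4 x := by
  haveI : Fact (Nat.Prime 2) := ⟨Nat.prime_two⟩
  have ho : orderOf x = 2 := orderOf_eq_prime (by rw [pow_two, hx]) hx1
  obtain ⟨n, hn⟩ := Perm.cycleType_prime_order (ho.symm ▸ Nat.prime_two)
  rw [ho] at hn
  have hs := Perm.sum_cycleType x
  have hc : x.support.card ≤ 8 := le_trans (Finset.card_le_univ _) (le_of_eq (Fintype.card_fin 8))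
  rw [hn, Multiset.sum_replicate, smul_eq_mul] at hs
  have hn4 : n < 4 := by omega
  obtain ⟨ha, hr, he3, he4, -⟩ := ct_facts
  simp only [Perm.isConj_iff_cycleType_eq, ha, hr, he3, he4, hn]
  interval_cases n <;> simp [Multiset.replicate_succ]

/-- Two involutions are conjugate by a power of their product, or some involution centralises
both, with its product with the second one conjugate to one of them. -/
theorem pair_dichotomy {G : Type*} [Group G] [Finite G] {u t : G} (hu : u * u = 1) (ht : t * t = 1)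
    (hne : u ≠ t) :
    (∃ k : ℕ, (u * t) ^ k * t * ((u * t) ^ k)⁻¹ = u) ∨
      ∃ (i : G) (k : ℕ), i * i = 1 ∧ i ≠ 1 ∧ Commute i u ∧ Commute i t ∧
        (∀ e, Commute e u → Commute e t → Commute e i) ∧
        (i * t = (u * t) ^ k * t * ((u * t) ^ k)⁻¹ ∨ i * t = (u * t) ^ k * u * ((u * t) ^ k)⁻¹) := by
  set p := u * t with hp
  have hu' : u⁻¹ = u := inv_eq_of_mul_eq_one_right hu
  have ht' : t⁻¹ = t := inv_eq_of_mul_eq_one_right ht
  have htp : t * p * t⁻¹ = p⁻¹ := by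
    rw [hp, mul_inv_rev, hu', ht', mul_assoc, mul_assoc, ht, mul_one]
  have hup : u * p * u⁻¹ = p⁻¹ := by
    rw [hp, mul_inv_rev, hu', ht', ← mul_assoc u u, hu, one_mul]
  have htk : ∀ k, t * (p ^ k)⁻¹ = p ^ k * t := fun k => by
    have : t * (p ^ k)⁻¹ * t⁻¹ = p ^ k := by
      rw [← inv_pow, ← conj_pow, ← conj_inv, htp, inv_inv]
    exact mul_inv_eq_iff_eq_mul.1 this
  have huk : ∀ k, u * (p ^ k)⁻¹ = p ^ k * u := fun k => by
    have : u * (p ^ k)⁻¹ * u⁻¹ = p ^ k := by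
      rw [← inv_pow, ← conj_pow, ← conj_inv, hup, inv_inv]
    exact mul_inv_eq_iff_eq_mul.1 this
  have hpt : p * t = u := by rw [hp, mul_assoc, ht, mul_one]
  obtain ⟨m, hm | hm⟩ : ∃ m, orderOf p = 2 * m ∨ orderOf p = 2 * m + 1 := ⟨orderOf p / 2, by omega⟩
  · right
    have hm0 : 0 < m := by have := orderOf_pos p; omega
    have hi2 : p ^ m * p ^ m = 1 := by
      rw [← pow_add, ← two_mul, ← hm, pow_orderOf_eq_one]
    have hi1 : p ^ m ≠ 1 := fun h => by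
      have := orderOf_le_of_pow_eq_one hm0 h; omega
    have hii : (p ^ m)⁻¹ = p ^ m := inv_eq_of_mul_eq_one_right hi2
    have hit : Commute (p ^ m) t := by
      have := htk m; rw [hii] at this; exact this.symm
    have hiu : Commute (p ^ m) u := by
      have := huk m; rw [hii] at this; exact this.symm
    obtain ⟨k, rfl | rfl⟩ : ∃ k, m = 2 * k ∨ m = 2 * k + 1 := ⟨m / 2, by omega⟩
    · refine ⟨p ^ (2 * k), k, hi2, hi1, hiu, hit, fun e h1 h2 => (h1.mul_right h2).pow_right _,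
        Or.inl ?_⟩
      rw [mul_assoc (p ^ k), htk, ← mul_assoc, ← pow_add, two_mul]
    · refine ⟨p ^ (2 * k + 1), k, hi2, hi1, hiu, hit, fun e h1 h2 => (h1.mul_right h2).pow_right _,
        Or.inr ?_⟩
      rw [mul_assoc (p ^ k), huk, ← mul_assoc, ← pow_add, pow_succ, mul_assoc _ p, hpt, two_mul]
  · left
    refine ⟨m + 1, ?_⟩
    rw [mul_assoc, htk, ← mul_assoc, ← pow_add, show m + 1 + (m + 1) = orderOf p + 1 by omega,
      pow_succ, pow_orderOf_eq_one, one_mul, hpt]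

namespace EightData

variable {G : Type*} [Group G] (e : EightData G)

/-- The image lies in the range with a centraliser lying in the range. -/
def Closed (x : Perm (Fin 8)) : Prop := Subgroup.centralizer ({e.Φ x} : Set G) ≤ e.Φ.range

theorem closed_of_conj {x y : Perm (Fin 8)} (h : IsConj x y) (hx : e.Closed x) : e.Closed y := by
  obtain ⟨k, rfl⟩ := isConj_iff.1 h
  intro g hg
  have hc : Commute g (e.Φ k * e.Φ x * (e.Φ k)⁻¹) := by
    have := Subgroup.mem_centralizer_singleton_iff.1 hg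
    rwa [map_mul, map_mul, map_inv] at this
  have h1 : (e.Φ k)⁻¹ * g * e.Φ k ∈ Subgroup.centralizer ({e.Φ x} : Set G) := by
    rw [Subgroup.mem_centralizer_singleton_iff]
    calc (e.Φ k)⁻¹ * g * e.Φ k * e.Φ x
        = (e.Φ k)⁻¹ * (g * (e.Φ k * e.Φ x * (e.Φ k)⁻¹)) * e.Φ k := by group
      _ = (e.Φ k)⁻¹ * (e.Φ k * e.Φ x * (e.Φ k)⁻¹ * g) * e.Φ k := by rw [hc.eq]
      _ = e.Φ x * ((e.Φ k)⁻¹ * g * e.Φ k) := by group
  obtain ⟨m, hm⟩ := hx h1
  exact ⟨k * m * k⁻¹, by rw [map_mul, map_mul, map_inv, hm]; group⟩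

/-- A conjugate of the transposition. -/
def Fu (w : G) : Prop := ∃ g : G, g * e.Φ a8 * g⁻¹ = w

theorem fu_conj {w : G} (h : e.Fu w) (g : G) : e.Fu (g * w * g⁻¹) := by
  obtain ⟨k, rfl⟩ := h
  exact ⟨g * k, by group⟩

theorem fu_sq {w : G} (h : e.Fu w) : w * w = 1 := by
  obtain ⟨g, rfl⟩ := h
  rw [show g * e.Φ a8 * g⁻¹ * (g * e.Φ a8 * g⁻¹) = g * (e.Φ a8 * e.Φ a8) * g⁻¹ by group, ← map_mul,
    comm_facts.2.2.2.2.2.2.1, map_one, mul_one, mul_inv_cancel]

theorem fu_swap {i j : Fin 8} (hij : i ≠ j) : e.Fu (e.Φ (swap i j)) := by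
  obtain ⟨k, hk⟩ := isConj_iff.1 (Perm.isConj_swap (show (6 : Fin 8) ≠ 7 by decide) hij)
  exact ⟨e.Φ k, by rw [← map_inv, ← map_mul, ← map_mul, show a8 = swap 6 7 from rfl, hk]⟩

theorem isSwap_of_fu {x : Perm (Fin 8)} (h : e.Fu (e.Φ x)) : x.IsSwap := by
  obtain ⟨g, hg⟩ := h
  exact e.fused g x hg

theorem T_conj (g w : G) : e.T (g * w * g⁻¹) = e.T w := by
  rw [map_mul, map_mul, mul_comm (e.T g), mul_assoc, ← map_mul, mul_inv_cancel, map_one, mul_one]

theorem sq_of_map {x : Perm (Fin 8)} (h : e.Φ x * e.Φ x = 1) : x * x = 1 :=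
  e.inj (by rw [map_mul, h, map_one])

theorem isSwap_iff {x : Perm (Fin 8)} : x.IsSwap ↔ IsConj a8 x := by
  constructor
  · rintro ⟨i, j, hij, rfl⟩
    exact Perm.isConj_swap (show (6 : Fin 8) ≠ 7 by decide) hij
  · intro h
    rw [Perm.isConj_iff_cycleType_eq, ct_facts.1] at h
    exact Perm.card_support_eq_two.1 (by rw [← Perm.sum_cycleType, ← h]; rfl)

variable [Finite G]

theorem not_conj_r_e4 (hr : e.Closed r8) (g : G) : g * e.Φ r8 * g⁻¹ ≠ e.Φ e4 := by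
  intro h
  obtain ⟨k, hk⟩ := isConj_iff.1 ((Perm.isConj_iff_cycleType_eq (σ := p8 ^ 4) (τ := e4)).2
    (ct_facts.2.2.2.2.2.2.trans ct_facts.2.2.2.1.symm))
  set w := g⁻¹ * e.Φ (k * p8 * k⁻¹) * g with hw
  have hw4 : w ^ 4 = e.Φ r8 := by
    have h2 := conj_pow (a := g⁻¹) (b := e.Φ (k * p8 * k⁻¹)) (i := 4)
    rw [inv_inv] at h2
    rw [hw, h2, ← map_pow, conj_pow, hk, ← h]
    group
  have hwc : w ∈ Subgroup.centralizer ({e.Φ r8} : Set G) := by
    rw [Subgroup.mem_centralizer_singleton_iff, ← hw4]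
    exact ((Commute.refl w).pow_right 4).eq
  obtain ⟨y, hy⟩ := hr hwc
  have hy4 : y ^ 4 = r8 := e.inj (by rw [map_pow, hy, hw4])
  -- an element with fourth power a double transposition would be an eight-cycle
  have hne : y ^ 4 ≠ 1 := by rw [hy4]; decide +kernel
  have h8 : y ^ 8 = 1 := by
    rw [show y ^ 8 = (y ^ 4) ^ 2 from pow_mul y 4 2, hy4, pow_two]; decide +kernel
  obtain ⟨n, hn, hn4⟩ : ∃ n ∈ y.cycleType, ¬ n ∣ 4 := by
    by_contra hcon
    push Not at hcon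
    exact hne (orderOf_dvd_iff_pow_eq_one.1 (by rw [← Perm.lcm_cycleType]; exact Multiset.lcm_dvd.2 hcon))
  have hn8 : n ∣ 8 := (Perm.dvd_of_mem_cycleType hn).trans (orderOf_dvd_of_pow_eq_one h8)
  have hn_eq : n = 8 := by
    have := Nat.le_of_dvd (by norm_num) hn8
    interval_cases n <;> simp_all
  subst hn_eq
  have hsum : y.support.card ≤ 8 := le_trans (Finset.card_le_univ _) (le_of_eq (Fintype.card_fin 8))
  obtain ⟨rest, hrest⟩ := Multiset.exists_cons_of_mem hn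
  have hs := Perm.sum_cycleType y
  rw [hrest, Multiset.sum_cons] at hs
  have hrest0 : rest = 0 := by
    by_contra hne0
    obtain ⟨b, hb⟩ := Multiset.exists_mem_of_ne_zero hne0
    have h2 := Perm.two_le_of_mem_cycleType (σ := y) (hrest ▸ Multiset.mem_cons_of_mem hb)
    have := Multiset.le_sum_of_mem hb
    omega
  rw [hrest0, Multiset.sum_zero, add_zero] at hs
  have hcyc : y.IsCycle := Perm.card_cycleType_eq_one.1 (by rw [hrest, hrest0]; rfl)
  have hsupp : y.support = Finset.univ :=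
    Finset.eq_univ_of_card _ (by rw [← hs, Fintype.card_fin])
  have h4 : (y ^ 4) 4 = 4 := by rw [hy4]; decide +kernel
  exact hne ((hcyc.pow_eq_one_iff' (x := (4 : Fin 8))
    (by rw [← Perm.mem_support, hsupp]; exact Finset.mem_univ _)).2 h4)

theorem not_fu_of_ct {x : Perm (Fin 8)} (hx : x.cycleType ≠ {2}) : ¬ e.Fu (e.Φ x) := fun h => by
  have := isSwap_iff.1 (e.isSwap_of_fu h)
  rw [Perm.isConj_iff_cycleType_eq, ct_facts.1] at this
  exact hx this.symm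

/-- An involution in a transposition's centraliser whose product with it is a transposition. -/
theorem closed_of_prod (hr : e.Closed r8) {x : Perm (Fin 8)} {i j : Fin 8} (hij : i ≠ j)
    (hx1 : x ≠ 1) (hx2 : x * x = 1) (hc : x * swap i j = swap i j * x)
    (hs : (x * swap i j).IsSwap) : e.Closed x := by
  obtain ⟨k, hk⟩ := isConj_iff.1 (Perm.isConj_swap hij (show (6 : Fin 8) ≠ 7 by decide))
  refine e.closed_of_conj ?_ hr
  obtain ⟨a, b, hab, hsw⟩ : (k * (x * swap i j) * k⁻¹).IsSwap := by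
    rw [isSwap_iff] at hs ⊢
    exact hs.trans (isConj_iff.2 ⟨k, rfl⟩)
  set x' := k * x * k⁻¹ with hx'
  have h1 : x' * a8 = swap a b := by
    rw [← hsw, hx', show a8 = swap 6 7 from rfl, ← hk]; group
  have hxx : x' * x' = 1 := by
    rw [hx', show k * x * k⁻¹ * (k * x * k⁻¹) = k * (x * x) * k⁻¹ by group, hx2]; group
  have hca : x' * a8 = a8 * x' := by
    rw [hx', show a8 = swap 6 7 from rfl, ← hk]
    calc k * x * k⁻¹ * (k * swap i j * k⁻¹) = k * (x * swap i j) * k⁻¹ := by group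
      _ = k * (swap i j * x) * k⁻¹ := by rw [hc]
      _ = _ := by group
  have ha2 : a8 * a8 = 1 := comm_facts.2.2.2.2.2.2.1
  have hx'eq : x' = swap a b * a8 := by rw [← h1, mul_assoc, ha2, mul_one]
  have hne : swap a b ≠ a8 := fun h => by
    rw [h, ha2] at hx'eq
    exact hx1 (conj_eq_one_iff.1 hx'eq)
  have hcomm : swap a b * a8 = a8 * swap a b := by
    rw [← h1, hca, mul_assoc a8, ← hca]
  have hct := swap_a8_comm a b hab hcomm hne
  rw [← hcomm, ← hx'eq, hx', Perm.cycleType_conj] at hct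
  exact Perm.isConj_iff_cycleType_eq.2 (ct_facts.2.1.trans hct.symm)

theorem mem_of_fu_e3 (hr : e.Closed r8) {u : G} (hu : e.Fu u) (hue : Commute u (e.Φ e3)) :
    u ∈ e.Φ.range := by
  obtain ⟨hae, hbe, -, -, hct4, hct2, -, -⟩ := comm_facts
  -- a transposition in the centraliser not conjugate to `u` there
  obtain ⟨a, b, hab, hc, hnc⟩ : ∃ a b : Fin 8, a ≠ b ∧ swap a b * e3 = e3 * swap a b ∧
      ∀ g : G, Commute g (e.Φ e3) → g * e.Φ (swap a b) * g⁻¹ ≠ u := by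
    by_cases h : ∃ g : G, Commute g (e.Φ e3) ∧ g * e.Φ (swap 6 7) * g⁻¹ = u
    · obtain ⟨g, hg, hgu⟩ := h
      refine ⟨0, 1, by decide, hbe, fun g' hg' hgu' => ?_⟩
      obtain ⟨k, hk⟩ := isConj_iff.1 ((Perm.isConj_iff_cycleType_eq (σ := r8)
        (τ := swap 0 1 * e3)).2 (ct_facts.2.1.trans hct2.symm))
      obtain ⟨l, hl⟩ := isConj_iff.1 ((Perm.isConj_iff_cycleType_eq (σ := a8 * e3)
        (τ := e4)).2 (hct4.trans ct_facts.2.2.2.1.symm))
      have h1 : g' * e.Φ (swap 0 1 * e3) * g'⁻¹ = g * e.Φ (a8 * e3) * g⁻¹ := by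
        rw [map_mul, map_mul, show g' * (e.Φ (swap 0 1) * e.Φ e3) * g'⁻¹ =
          (g' * e.Φ (swap 0 1) * g'⁻¹) * (g' * e.Φ e3 * g'⁻¹) by group, hg'.eq, mul_inv_cancel_right,
          show g * (e.Φ a8 * e.Φ e3) * g⁻¹ = (g * e.Φ a8 * g⁻¹) * (g * e.Φ e3 * g⁻¹) by group,
          hg.eq, mul_inv_cancel_right, hgu', show a8 = swap 6 7 from rfl, hgu]
      apply e.not_conj_r_e4 hr (e.Φ l * g⁻¹ * g' * e.Φ k)
      rw [← hl, ← hk] at *
      rw [map_mul, map_mul, map_inv] at h1 ⊢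
      calc e.Φ l * g⁻¹ * g' * e.Φ k * e.Φ r8 * (e.Φ l * g⁻¹ * g' * e.Φ k)⁻¹
          = e.Φ l * (g⁻¹ * (g' * (e.Φ k * e.Φ r8 * (e.Φ k)⁻¹) * g'⁻¹) * g) * (e.Φ l)⁻¹ := by group
        _ = _ := by rw [h1]; group
    · push Not at h
      exact ⟨6, 7, by decide, hae, fun g hg => h g hg⟩
  have ht : Commute (e.Φ (swap a b)) (e.Φ e3) := (show Commute (swap a b) e3 from hc).map e.Φ
  have ht2 : e.Φ (swap a b) * e.Φ (swap a b) = 1 := by rw [← map_mul, swap_mul_self, map_one]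
  by_cases hut : u = e.Φ (swap a b)
  · exact ⟨_, hut.symm⟩
  rcases pair_dichotomy (e.fu_sq hu) ht2 hut with ⟨k, hk⟩ | ⟨i, k, hi2, hi1, hiu, hit, -, hdis⟩
  · exact absurd hk (hnc _ ((hue.mul_left ht).pow_left k))
  · have hfu : e.Fu (i * e.Φ (swap a b)) := by
      rcases hdis with h | h <;> rw [h]
      · exact e.fu_conj (e.fu_swap hab) _
      · exact e.fu_conj hu _
    obtain ⟨x, rfl⟩ := e.cent_isSwap ⟨a, b, hab, rfl⟩ (Subgroup.mem_centralizer_singleton_iff.2 hit.eq)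
    rw [← map_mul] at hfu
    exact e.closed_of_prod hr hab (fun h => hi1 (by rw [h, map_one])) (e.sq_of_map hi2)
      (e.inj (by rw [map_mul, map_mul]; exact hit.eq)) (e.isSwap_of_fu hfu)
      (Subgroup.mem_centralizer_singleton_iff.2 hiu.symm.eq)

theorem closed_e3 (hr : e.Closed r8) : e.Closed e3 := by
  intro g hg
  have hge : Commute g (e.Φ e3) := Subgroup.mem_centralizer_singleton_iff.1 hg
  have hae : Commute (e.Φ a8) (e.Φ e3) := (show Commute a8 e3 from comm_facts.1).map e.Φ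
  have hu : e.Fu (g * e.Φ a8 * g⁻¹) := ⟨g, rfl⟩
  obtain ⟨s, hs⟩ := e.mem_of_fu_e3 hr hu ((hge.mul_left hae).mul_left hge.inv_left)
  obtain ⟨i, j, hij, rfl⟩ := e.isSwap_of_fu (hs ▸ hu)
  have hsc : swap i j * e3 = e3 * swap i j := e.inj (by
    rw [map_mul, map_mul, hs]; exact ((hge.mul_left hae).mul_left hge.inv_left).eq)
  by_cases heq : swap i j = a8
  · rw [heq] at hs
    exact e.cent_swap (Subgroup.mem_centralizer_singleton_iff.2 (mul_inv_eq_iff_eq_mul.1 hs.symm))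
  exfalso
  obtain ⟨k, hk⟩ := isConj_iff.1 ((Perm.isConj_iff_cycleType_eq (σ := r8) (τ := swap i j * e3)).2
    (ct_facts.2.1.trans (swap_e3_comm i j hij hsc heq).symm))
  obtain ⟨l, hl⟩ := isConj_iff.1 ((Perm.isConj_iff_cycleType_eq (σ := a8 * e3) (τ := e4)).2
    (comm_facts.2.2.2.2.1.trans ct_facts.2.2.2.1.symm))
  have h1 : e.Φ (swap i j * e3) = g * e.Φ (a8 * e3) * g⁻¹ := by
    rw [map_mul, map_mul, hs, show g * (e.Φ a8 * e.Φ e3) * g⁻¹ =
      (g * e.Φ a8 * g⁻¹) * (g * e.Φ e3 * g⁻¹) by group, hge.eq, mul_inv_cancel_right]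
  apply e.not_conj_r_e4 hr (e.Φ l * g⁻¹ * e.Φ k)
  rw [← hl, map_mul, map_mul, map_inv]
  rw [← hk, map_mul, map_mul, map_inv] at h1
  calc e.Φ l * g⁻¹ * e.Φ k * e.Φ r8 * (e.Φ l * g⁻¹ * e.Φ k)⁻¹
      = e.Φ l * (g⁻¹ * (e.Φ k * e.Φ r8 * (e.Φ k)⁻¹) * g) * (e.Φ l)⁻¹ := by group
    _ = _ := by rw [h1]; group

/-- Inside the range, the class of `e4` meets only its own class. -/
theorem ct_of_conj_e4 (hr : e.Closed r8) {x : Perm (Fin 8)} {g : G}
    (h : g * e.Φ e4 * g⁻¹ = e.Φ x) : x.cycleType = {2, 2, 2, 2} := by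
  obtain ⟨hsa, hsr, hs3, hs4⟩ := sign_facts
  have hx2 : x * x = 1 := e.sq_of_map (by
    rw [← h, show g * e.Φ e4 * g⁻¹ * (g * e.Φ e4 * g⁻¹) = g * (e.Φ e4 * e.Φ e4) * g⁻¹ by group,
      ← map_mul, show e4 * e4 = 1 by decide +kernel, map_one, mul_one, mul_inv_cancel])
  have hx1 : x ≠ 1 := fun h1 => by
    rw [h1, map_one, conj_eq_one_iff, map_eq_one_iff _ e.inj] at h
    revert h; decide +kernel
  have hsign : Perm.sign x = 1 := by rw [← e.T_sign, ← h, e.T_conj, e.T_sign, hs4]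
  rcases invol_cases8 hx2 hx1 with hc | hc | hc | hc
  all_goals obtain ⟨k, rfl⟩ := isConj_iff.1 hc
  · simp [map_mul, map_inv, hsa] at hsign
  · exfalso
    apply e.not_conj_r_e4 hr (g⁻¹ * e.Φ k)
    rw [map_mul, map_mul, map_inv] at h
    calc g⁻¹ * e.Φ k * e.Φ r8 * (g⁻¹ * e.Φ k)⁻¹ = g⁻¹ * (e.Φ k * e.Φ r8 * (e.Φ k)⁻¹) * g := by group
      _ = _ := by rw [← h]; group
  · simp [map_mul, map_inv, hs3] at hsign
  · rw [Perm.cycleType_conj]; exact ct_facts.2.2.2.1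

theorem six_to_seven {x : Perm (Fin 8)} (hct : x.cycleType = {2, 2, 2, 2})
    (hc : x * a8 = a8 * x) : x 6 = 7 := by
  have hs : x.support = Finset.univ := Finset.eq_univ_of_card _ (by
    rw [← Perm.sum_cycleType, hct, Fintype.card_fin]; rfl)
  have hm : x 6 ≠ 6 := Perm.mem_support.1 (hs ▸ Finset.mem_univ _)
  have h := congrArg (fun f : Perm (Fin 8) => f 7) hc
  simp only [Perm.mul_apply] at h
  rw [show a8 7 = 6 by decide +kernel] at h
  by_contra hne
  rw [h] at hm hne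
  have h7 : x 7 ≠ 7 := Perm.mem_support.1 (hs ▸ Finset.mem_univ _)
  have : ∀ b : Fin 8, a8 b ≠ 7 → a8 b ≠ 6 → a8 b = b := by decide +kernel
  have h8 := this _ hne hm
  rw [h8] at h
  exact absurd (x.injective h) (by decide)

theorem mem_of_fu_e4 (hr : e.Closed r8) (h3 : e.Closed e3) {u : G} (hu : e.Fu u)
    (hue : Commute u (e.Φ e4)) : u ∈ e.Φ.range := by
  obtain ⟨-, -, htc, -, -, -, -, -⟩ := comm_facts
  obtain ⟨hca, hcr, hc3, hc4, hct, hcte, -⟩ := ct_facts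
  by_contra huH
  have ht8 : e.Closed t8 := e.closed_of_conj (Perm.isConj_iff_cycleType_eq.2 (hcr.trans hct.symm)) hr
  have ht2 : e.Φ t8 * e.Φ t8 = 1 := by rw [← map_mul, show t8 * t8 = 1 by decide +kernel, map_one]
  have hte : Commute (e.Φ t8) (e.Φ e4) := (show Commute t8 e4 from htc).map e.Φ
  rcases pair_dichotomy (e.fu_sq hu) ht2 (fun h => huH ⟨_, h.symm⟩) with
    ⟨k, hk⟩ | ⟨i, k, hi2, hi1, hiu, hit, hall, hdis⟩
  · generalize (u * e.Φ t8) ^ k = p at hk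
    have h1 := e.fu_conj hu p⁻¹
    rw [← hk, show p⁻¹ * (p * e.Φ t8 * p⁻¹) * p⁻¹⁻¹ = e.Φ t8 by group] at h1
    exact e.not_fu_of_ct (by rw [hct]; decide) h1
  obtain ⟨x, rfl⟩ := ht8 (Subgroup.mem_centralizer_singleton_iff.2 hit.eq)
  have hie : Commute (e.Φ e4) (e.Φ x) := hall _ hue.symm hte.symm
  -- involutions of the range centralising `u` are fixed-point-free
  have key : ∀ y : Perm (Fin 8), y ≠ 1 → y * y = 1 → Commute (e.Φ y) u → IsConj e4 y := by
    intro y hy1 hy2 hyu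
    rcases invol_cases8 hy2 hy1 with hc | hc | hc | hc
    · exact absurd (e.closed_of_conj hc e.cent_swap (Subgroup.mem_centralizer_singleton_iff.2 hyu.symm.eq)) huH
    · exact absurd (e.closed_of_conj hc hr (Subgroup.mem_centralizer_singleton_iff.2 hyu.symm.eq)) huH
    · exact absurd (e.closed_of_conj hc h3 (Subgroup.mem_centralizer_singleton_iff.2 hyu.symm.eq)) huH
    · exact hc
  have hx2 : x * x = 1 := e.sq_of_map hi2
  have hxe : x * e4 = e4 * x := e.inj (by rw [map_mul, map_mul]; exact hie.symm.eq)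
  have hxeq : x = e4 := by
    by_contra hne
    have he42 : e4 * e4 = 1 := by decide +kernel
    have hy1 : x * e4 ≠ 1 := fun h => hne (by
      rw [← mul_one x, ← he42, ← mul_assoc, h, one_mul])
    have hy2 : x * e4 * (x * e4) = 1 := by
      rw [show x * e4 * (x * e4) = x * (e4 * x) * e4 by group, ← hxe,
        show x * (x * e4) * e4 = (x * x) * (e4 * e4) by group, hx2, he42, one_mul]
    have hyu : Commute (e.Φ (x * e4)) u := by rw [map_mul]; exact hiu.mul_left hue.symm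
    have hxc := key x (fun h => hi1 (by rw [h, map_one])) hx2 hiu
    have hyc := key _ hy1 hy2 hyu
    -- carry `u` to the transposition `a8`
    obtain ⟨g, hg⟩ := hu
    have pull : ∀ y : Perm (Fin 8), IsConj e4 y → Commute (e.Φ y) u →
        ∃ y' : Perm (Fin 8), e.Φ y' = g⁻¹ * e.Φ y * g ∧ y'.cycleType = {2, 2, 2, 2} ∧
          y' * a8 = a8 * y' := by
      intro y hy hyu
      have hc : Commute (g⁻¹ * e.Φ y * g) (e.Φ a8) := by
        have h := hyu.eq
        rw [← hg] at h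
        calc g⁻¹ * e.Φ y * g * e.Φ a8 = g⁻¹ * (e.Φ y * (g * e.Φ a8 * g⁻¹)) * g := by group
          _ = g⁻¹ * (g * e.Φ a8 * g⁻¹ * e.Φ y) * g := by rw [h]
          _ = e.Φ a8 * (g⁻¹ * e.Φ y * g) := by group
      obtain ⟨y', hy'⟩ := e.cent_swap (Subgroup.mem_centralizer_singleton_iff.2 hc.eq)
      refine ⟨y', hy', ?_, e.inj (by rw [map_mul, map_mul, hy']; exact hc.eq)⟩
      obtain ⟨l, rfl⟩ := isConj_iff.1 hy
      refine e.ct_of_conj_e4 hr (g := g⁻¹ * e.Φ l) ?_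
      rw [hy', map_mul, map_mul, map_inv]; group
    obtain ⟨x', hx', hx'ct, hx'c⟩ := pull x hxc hiu
    obtain ⟨f', hf', hf'ct, hf'c⟩ := pull e4 (IsConj.refl _) hue.symm
    obtain ⟨p', hp', hp'ct, hp'c⟩ := pull _ hyc hyu
    have hpe : p' = x' * f' := e.inj (by rw [map_mul, hx', hf', hp', map_mul]; group)
    have h6 := six_to_seven hp'ct hp'c
    rw [hpe, Perm.mul_apply, six_to_seven hf'ct hf'c] at h6
    exact absurd (x'.injective (h6.trans (six_to_seven hx'ct hx'c).symm)) (by decide)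
  subst hxeq
  rcases hdis with h | h
  · have h1 : ((u * e.Φ t8) ^ k) * e.Φ t8 * ((u * e.Φ t8) ^ k)⁻¹ = e.Φ (e4 * t8) := by
      rw [map_mul, h]
    obtain ⟨l, hl⟩ := isConj_iff.1 ((Perm.isConj_iff_cycleType_eq (σ := r8) (τ := t8)).2 (hcr.trans hct.symm))
    obtain ⟨m, hm⟩ := isConj_iff.1 ((Perm.isConj_iff_cycleType_eq (σ := e4 * t8) (τ := e4)).2
      (by rw [← htc, hcte, hc4]))
    apply e.not_conj_r_e4 hr (e.Φ m * (u * e.Φ t8) ^ k * e.Φ l)
    have hl' : e.Φ l * e.Φ r8 * (e.Φ l)⁻¹ = e.Φ t8 := by rw [← map_inv, ← map_mul, ← map_mul, hl]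
    calc e.Φ m * (u * e.Φ t8) ^ k * e.Φ l * e.Φ r8 * (e.Φ m * (u * e.Φ t8) ^ k * e.Φ l)⁻¹
        = e.Φ m * ((u * e.Φ t8) ^ k * (e.Φ l * e.Φ r8 * (e.Φ l)⁻¹) * ((u * e.Φ t8) ^ k)⁻¹) *
            (e.Φ m)⁻¹ := by group
      _ = e.Φ m * e.Φ (e4 * t8) * (e.Φ m)⁻¹ := by rw [hl', h1]
      _ = e.Φ e4 := by rw [← map_inv, ← map_mul, ← map_mul, hm]
  · have h1 : e.Fu (e.Φ (e4 * t8)) := by rw [map_mul, h]; exact e.fu_conj hu _
    exact e.not_fu_of_ct (by rw [← htc, hcte]; decide) h1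

theorem closed_e4 (hr : e.Closed r8) : e.Closed e4 := by
  intro g hg
  have hge : Commute g (e.Φ e4) := Subgroup.mem_centralizer_singleton_iff.1 hg
  have hae : Commute (e.Φ a8) (e.Φ e4) := (show Commute a8 e4 from comm_facts.2.2.2.1).map e.Φ
  have hu : e.Fu (g * e.Φ a8 * g⁻¹) := ⟨g, rfl⟩
  obtain ⟨s, hs⟩ := e.mem_of_fu_e4 hr (e.closed_e3 hr) hu ((hge.mul_left hae).mul_left hge.inv_left)
  obtain ⟨i, j, hij, rfl⟩ := e.isSwap_of_fu (hs ▸ hu)
  obtain ⟨k, -, hk, hka⟩ := swap_e4_comm i j hij (e.inj (by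
    rw [map_mul, map_mul, hs]; exact ((hge.mul_left hae).mul_left hge.inv_left).eq))
  have h1 : (e.Φ k)⁻¹ * g ∈ Subgroup.centralizer ({e.Φ a8} : Set G) := by
    rw [Subgroup.mem_centralizer_singleton_iff]
    rw [← hka, map_mul, map_mul, map_inv] at hs
    calc (e.Φ k)⁻¹ * g * e.Φ a8 = (e.Φ k)⁻¹ * (g * e.Φ a8 * g⁻¹) * g := by group
      _ = (e.Φ k)⁻¹ * (e.Φ k * e.Φ a8 * (e.Φ k)⁻¹) * g := by rw [← hs]
      _ = e.Φ a8 * ((e.Φ k)⁻¹ * g) := by group
  obtain ⟨m, hm⟩ := e.cent_swap h1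
  exact ⟨k * m, by rw [map_mul, hm, mul_inv_cancel_left]⟩

theorem range_eq_top (hr : e.Closed r8) : e.Φ.range = ⊤ := by
  have hall : ∀ x : Perm (Fin 8), x ≠ 1 → x * x = 1 → e.Closed x := by
    intro x hx1 hx2
    rcases invol_cases8 hx2 hx1 with hc | hc | hc | hc
    exacts [e.closed_of_conj hc e.cent_swap, e.closed_of_conj hc hr,
      e.closed_of_conj hc (e.closed_e3 hr), e.closed_of_conj hc (e.closed_e4 hr)]
  have hmem : ∀ u, e.Fu u → u ∈ e.Φ.range := by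
    intro u hu
    by_contra huH
    have ht2 : e.Φ r8 * e.Φ r8 = 1 := by rw [← map_mul, show r8 * r8 = 1 by decide +kernel, map_one]
    rcases pair_dichotomy (e.fu_sq hu) ht2 (fun h => huH ⟨_, h.symm⟩) with
      ⟨k, hk⟩ | ⟨i, k, hi2, hi1, hiu, hit, -, -⟩
    · generalize (u * e.Φ r8) ^ k = p at hk
      have h1 := e.fu_conj hu p⁻¹
      rw [← hk, show p⁻¹ * (p * e.Φ r8 * p⁻¹) * p⁻¹⁻¹ = e.Φ r8 by group] at h1
      exact e.not_fu_of_ct (by rw [ct_facts.2.1]; decide) h1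
    · obtain ⟨x, rfl⟩ := hr (Subgroup.mem_centralizer_singleton_iff.2 hit.eq)
      exact huH (hall x (fun h => hi1 (by rw [h, map_one])) (e.sq_of_map hi2)
        (Subgroup.mem_centralizer_singleton_iff.2 hiu.symm.eq))
  refine eq_top_iff.2 fun g _ => ?_
  have hu : e.Fu (g * e.Φ a8 * g⁻¹) := ⟨g, rfl⟩
  obtain ⟨s, hs⟩ := hmem _ hu
  obtain ⟨i, j, hij, rfl⟩ := e.isSwap_of_fu (hs ▸ hu)
  obtain ⟨k, hk⟩ := isConj_iff.1 (Perm.isConj_swap (show (6 : Fin 8) ≠ 7 by decide) hij)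
  have h1 : (e.Φ k)⁻¹ * g ∈ Subgroup.centralizer ({e.Φ a8} : Set G) := by
    rw [Subgroup.mem_centralizer_singleton_iff]
    rw [← hk, map_mul, map_mul, map_inv] at hs
    calc (e.Φ k)⁻¹ * g * e.Φ a8 = (e.Φ k)⁻¹ * (g * e.Φ a8 * g⁻¹) * g := by group
      _ = (e.Φ k)⁻¹ * (e.Φ k * e.Φ a8 * (e.Φ k)⁻¹) * g := by rw [← hs]; rfl
      _ = e.Φ a8 * ((e.Φ k)⁻¹ * g) := by group
  obtain ⟨m, hm⟩ := e.cent_swap h1
  exact ⟨k * m, by rw [map_mul, hm, mul_inv_cancel_left]⟩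

theorem mulEquiv_perm (hr : e.Closed r8) : Nonempty (G ≃* Perm (Fin 8)) :=
  ⟨((MulEquiv.ofBijective e.Φ ⟨e.inj, MonoidHom.range_eq_top.1 (e.range_eq_top hr)⟩)).symm⟩

end EightData

end Cfsg.Agent.H34.SymEight
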