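import Cfsg.Agent.H34.SymEight.Basic
import Cfsg.Agent.H87.SymEightIndex

/-!
# The case `C(c) = N(D)`: two commuting alternating groups of degree five
-/

set_option autoImplicit false
set_option maxRecDepth 10000
set_option maxHeartbeats 600000

namespace Cfsg.Agent.H34.SymEight

open Equiv

/-- A double transposition commuting with `c5`. -/
def r5 : Perm (Fin 5) := swap 0 1 * swap 3 4

/-- A double transposition commuting with `r5`, moving `c5` to `swap 0 1`. -/
def v5 : Perm (Fin 5) := swap 0 3 * swap 1 4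

theorem inverting_classify : ∀ σ : Perm (Fin 5), σ * σ = 1 → σ * c5 = c5 * σ →
    σ * t5 * σ = t5⁻¹ → (∃ k < 3, t5 ^ k * σ * (t5 ^ k)⁻¹ = swap 0 1) ∨
      ∃ k < 3, t5 ^ k * σ * (t5 ^ k)⁻¹ = r5 := by decide +kernel

theorem cent_five : ∀ σ : Perm (Fin 5), σ * t5 = t5 * σ → σ * r5 = r5 * σ → σ * v5 = v5 * σ →
    σ = 1 := by decide +kernel

theorem v5_facts : v5 * v5 = 1 ∧ r5 * r5 = 1 ∧ v5 * r5 = r5 * v5 ∧ v5 * c5 * v5 = r5 * c5 ∧
    r5 * c5 = c5 * r5 ∧ r5 * t5 * r5 = t5⁻¹ ∧ (v5 * t5) ^ 5 = 1 ∧ v5 * t5 ≠ 1 ∧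
    Perm.sign r5 = 1 ∧ Perm.sign v5 = 1 ∧ r5 ≠ 1 ∧ Perm.sign c5 = -1 ∧ r5 ≠ v5 := by
  decide +kernel

theorem closure_gens :
    Subgroup.closure {t5, r5, v5} = alternatingGroup (Fin 5) := by
  obtain ⟨hv, hr, hvr, -, -, -, h5, h5', hsr, hsv, hr1, -, hne⟩ := v5_facts
  set K := Subgroup.closure {t5, r5, v5} with hK
  have hle : K ≤ alternatingGroup (Fin 5) := by
    rw [hK, Subgroup.closure_le]
    rintro x (rfl | rfl | rfl)
    · exact t5_sign
    · exact hsr
    · exact hsv
  have ht : t5 ∈ K := Subgroup.subset_closure (by simp)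
  have hrm : r5 ∈ K := Subgroup.subset_closure (by simp)
  have hvm : v5 ∈ K := Subgroup.subset_closure (by simp)
  have d3 : 3 ∣ Nat.card K := by
    haveI : Fact (Nat.Prime 3) := ⟨Nat.prime_three⟩
    rw [← orderOf_eq_prime t5_pow_three t5_ne_one]
    exact Subgroup.orderOf_dvd_natCard _ ht
  have d5 : 5 ∣ Nat.card K := by
    haveI : Fact (Nat.Prime 5) := ⟨Nat.prime_five⟩
    have h := Subgroup.orderOf_dvd_natCard K (mul_mem hvm ht)
    rwa [orderOf_eq_prime h5 h5'] at h
  have d4 : 4 ∣ Nat.card K := by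
    let V : Subgroup (Perm (Fin 5)) :=
      { carrier := {1, r5, v5, r5 * v5}
        one_mem' := by simp
        mul_mem' := by
          intro a b ha hb
          simp only [Set.mem_insert_iff, Set.mem_singleton_iff] at ha hb ⊢
          rcases ha with rfl | rfl | rfl | rfl <;> rcases hb with rfl | rfl | rfl | rfl <;> decide
        inv_mem' := by
          intro a ha
          simp only [Set.mem_insert_iff, Set.mem_singleton_iff] at ha ⊢
          rcases ha with rfl | rfl | rfl | rfl <;> decide }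
    have hVK : V ≤ K := by
      rintro x (rfl | rfl | rfl | rfl)
      exacts [one_mem _, hrm, hvm, mul_mem hrm hvm]
    have hV : Nat.card V = 4 := by
      show Nat.card ({1, r5, v5, r5 * v5} : Set (Perm (Fin 5))) = 4
      rw [Nat.card_eq_card_toFinset]
      decide
    rw [← hV]
    exact Subgroup.card_dvd_of_le hVK
  have h60 : 60 ∣ Nat.card K := by
    have := Nat.Coprime.mul_dvd_of_dvd_of_dvd (by decide : Nat.Coprime 3 4) d3 d4
    exact Nat.Coprime.mul_dvd_of_dvd_of_dvd (by decide : Nat.Coprime (3 * 4) 5) this d5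
  refine Subgroup.eq_of_le_of_card_ge hle ?_
  rw [nat_card_alternatingGroup, Nat.card_eq_fintype_card (α := Fin 5), Fintype.card_fin]
  exact Nat.le_of_dvd Nat.card_pos (by simpa [Nat.factorial] using h60)

theorem v5_conj : v5 * c5 * v5⁻¹ = swap 0 1 := by decide +kernel

attribute [local irreducible] t5 c5 r5 v5 u3 w3

theorem cases_D {i j : ℕ} (hi : i < 3) (hj : j < 3) :
    (i = 0 ∧ j = 0) ∨ (j = 0 ∧ i ≠ 0) ∨ (i = 0 ∧ j ≠ 0) ∨ (i ≠ 0 ∧ j ≠ 0) := by omega

theorem rzc_aux {G : Type*} [Group G] (a : G) {r : G} (h : Commute r a) : r * a * r⁻¹ = a := by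
  rw [h.eq, mul_inv_cancel_right]

namespace Data

universe u

variable {G : Type u} [Group G] (d : Data G) [Finite G]

theorem card_centralizer_conj (n a : G) :
    Nat.card (Subgroup.centralizer ({n * a * n⁻¹} : Set G)) =
      Nat.card (Subgroup.centralizer ({a} : Set G)) := by
  refine Nat.card_congr
    { toFun := fun g => ⟨n⁻¹ * g * n, ?_⟩
      invFun := fun g => ⟨n * g * n⁻¹, ?_⟩
      left_inv := fun g => Subtype.ext (by group)
      right_inv := fun g => Subtype.ext (by group) }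
  · have h := Subgroup.mem_centralizer_singleton_iff.1 g.2
    rw [Subgroup.mem_centralizer_singleton_iff]
    calc n⁻¹ * (g : G) * n * a = n⁻¹ * ((g : G) * (n * a * n⁻¹)) * n := by group
      _ = n⁻¹ * ((n * a * n⁻¹) * g) * n := by rw [h]
      _ = a * (n⁻¹ * (g : G) * n) := by group
  · have h := Subgroup.mem_centralizer_singleton_iff.1 g.2
    rw [Subgroup.mem_centralizer_singleton_iff]
    calc n * (g : G) * n⁻¹ * (n * a * n⁻¹) = n * ((g : G) * a) * n⁻¹ := by group
      _ = n * (a * g) * n⁻¹ := by rw [h]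
      _ = n * a * n⁻¹ * (n * (g : G) * n⁻¹) := by group

theorem centralizer_inv (a : G) :
    Subgroup.centralizer ({a⁻¹} : Set G) = Subgroup.centralizer ({a} : Set G) := by
  ext g
  simp only [Subgroup.mem_centralizer_singleton_iff]
  exact ⟨fun h => by simpa using (Commute.inv_right (show Commute g a⁻¹ from h)).eq,
    fun h => (Commute.inv_right (show Commute g a from h)).eq⟩

/-- The elements of `D` with a centraliser of order 360. -/
theorem line_cases {x : G} (hx : x ∈ d.D)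
    (h360 : Nat.card (Subgroup.centralizer ({x} : Set G)) = 360) (hx1 : x ≠ 1) :
    x = d.z ∨ x = d.z⁻¹ ∨ x = d.z' ∨ x = d.z'⁻¹ := by
  obtain ⟨i, j, hi, hj, rfl⟩ := d.mem_D.1 hx
  have e2 : d.z ^ 2 = d.z⁻¹ := eq_inv_of_mul_eq_one_left (by rw [← pow_succ]; exact d.z_cube)
  have e2' : d.z' ^ 2 = d.z'⁻¹ := eq_inv_of_mul_eq_one_left (by rw [← pow_succ]; exact d.z'_cube)
  have hy : Nat.card (Subgroup.centralizer ({d.z * d.z'} : Set G)) = 36 := d.card_cy
  have hy' : Nat.card (Subgroup.centralizer ({d.z⁻¹ * d.z'} : Set G)) = 36 := by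
    have h := card_centralizer_conj d.s (d.z * d.z')
    rw [show d.s * (d.z * d.z') * d.s⁻¹ = (d.s * d.z * d.s⁻¹) * (d.s * d.z' * d.s⁻¹) by group,
      d.s_z'.eq, mul_inv_cancel_right, inv_eq_of_mul_eq_one_right d.s_sq, d.s_z] at h
    rw [h]; exact hy
  interval_cases i <;> interval_cases j <;>
    simp only [e2, e2', pow_zero, pow_one, one_mul, mul_one, ne_eq, not_true_eq_false] at h360 hx1 ⊢
  · exact Or.inr (Or.inr (Or.inl trivial))
  · exact Or.inr (Or.inr (Or.inr trivial))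
  · exact Or.inl trivial
  · rw [hy] at h360; omega
  · exfalso
    rw [show d.z * d.z'⁻¹ = (d.z⁻¹ * d.z')⁻¹ by
      rw [mul_inv_rev, inv_inv]; exact (d.z_z'.inv_right).eq, centralizer_inv, hy'] at h360
    omega
  · exact Or.inr (Or.inl trivial)
  · rw [hy'] at h360; omega
  · exfalso
    rw [show d.z⁻¹ * d.z'⁻¹ = (d.z * d.z')⁻¹ by
      rw [mul_inv_rev]; exact (d.z_z'.inv_inv).eq, centralizer_inv, hy] at h360
    omega

/-- The whole second case: the product of two groups `Alt(5)` is normal of index four. -/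
theorem exists_product (hCc : Subgroup.centralizer ({d.c} : Set G) = Subgroup.normalizer (d.D : Set G))
    (endgame : ∀ (K : Type u) [Group K] [Finite K]
      (Ψ : alternatingGroup (Fin 5) × alternatingGroup (Fin 5) →* K),
      Function.Injective Ψ → Odd Ψ.range.index →
      (∀ x : alternatingGroup (Fin 5) × alternatingGroup (Fin 5), x ^ 3 = 1 → x ≠ 1 →
        Subgroup.centralizer ({Ψ x} : Set K) ≤ Ψ.range) → Ψ.range = ⊤) :
    ∃ Φ : alternatingGroup (Fin 5) × alternatingGroup (Fin 5) →* G, Function.Injective Φ ∧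
      (∀ a b, d.q * Φ (a, b) * d.q⁻¹ = Φ (b, a)) ∧ Φ.range.Normal ∧ Φ.range.index = 4 ∧
      (∀ g : G, g * g ∈ Φ.range) ∧ Subgroup.centralizer (Φ.range : Set G) = ⊥ := by
  obtain ⟨hv2, hr2, hvr, hvc, hrc, hrt, h5, -, hsr, hsv, hr1, hsc, -⟩ := v5_facts
  have hqq : ∀ a : G, d.q * (d.q * a * d.q) * d.q = a := fun a => by
    rw [show d.q * (d.q * a * d.q) * d.q = (d.q * d.q) * a * (d.q * d.q) by group, d.q_sq,
      one_mul, mul_one]
  have cq : ∀ {a b : G}, Commute a b → Commute (d.q * a * d.q) (d.q * b * d.q) := fun {a b} h => by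
    show d.q * a * d.q * (d.q * b * d.q) = d.q * b * d.q * (d.q * a * d.q)
    rw [show d.q * a * d.q * (d.q * b * d.q) = d.q * a * (d.q * d.q) * b * d.q by group,
      show d.q * b * d.q * (d.q * a * d.q) = d.q * b * (d.q * d.q) * a * d.q by group, d.q_sq,
      mul_one, mul_one, mul_assoc d.q a b, h.eq, ← mul_assoc]
  have hqc : d.q * d.c * d.q = d.c := by rw [d.q_c_comm.eq, mul_assoc, d.q_sq, mul_one]
  have hsinv : d.s⁻¹ = d.s := inv_eq_of_mul_eq_one_right d.s_sq
  have h144 : Nat.card (Subgroup.centralizer ({d.c} : Set G)) = 144 := by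
    rw [hCc]; exact d.card_norm
  -- choose the involution inverting `z` so that `q` carries it to `r`
  obtain ⟨σ, hσ⟩ : ∃ σ, d.q * d.s * d.q = d.ι σ := by
    have h1 : Commute (d.q * d.s * d.q) d.z := by
      simpa [d.qz'q] using cq d.s_z'
    obtain ⟨i, σ, hi, hiσ⟩ := d.of_comm_z h1
    refine ⟨σ, ?_⟩
    have h2 : (d.q * d.s * d.q) * (d.q * d.s * d.q) = 1 := by
      rw [show d.q * d.s * d.q * (d.q * d.s * d.q) = d.q * d.s * (d.q * d.q) * d.s * d.q by group,
        d.q_sq, mul_one, mul_assoc d.q, d.s_sq, mul_one, d.q_sq]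
    rw [hiσ] at h2 ⊢
    have h3 : d.z ^ (i + i) * d.ι (σ * σ) = d.z ^ 0 * d.ι 1 := by
      rw [pow_add, map_mul, pow_zero, map_one, one_mul, mul_assoc (d.z ^ i) (d.z ^ i),
        ← mul_assoc (d.z ^ i) (d.ι σ), ((d.z_ι σ).pow_left i).eq, mul_assoc (d.ι σ),
        ← mul_assoc (d.z ^ i)]
      exact h2
    rw [pow_eq_pow_mod (i + i) d.z_cube] at h3
    obtain ⟨h4, -⟩ := d.split_eq (Nat.mod_lt _ (by norm_num)) (by norm_num) h3
    interval_cases i <;> simp_all
  obtain ⟨k, hk⟩ : ∃ k : ℕ, t5 ^ k * σ * (t5 ^ k)⁻¹ = r5 := by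
    have e1 : σ * σ = 1 := d.ι_injective (by
      rw [map_mul, ← hσ, map_one,
        show d.q * d.s * d.q * (d.q * d.s * d.q) = d.q * d.s * (d.q * d.q) * d.s * d.q by group,
        d.q_sq, mul_one, mul_assoc d.q, d.s_sq, mul_one, d.q_sq])
    have e2 : σ * c5 = c5 * σ := d.ι_injective (by
      rw [map_mul, map_mul, ← hσ]
      have := (cq d.s_c).eq
      rwa [hqc] at this)
    have e3 : σ * t5 * σ = t5⁻¹ := d.ι_injective (by
      rw [map_mul, map_mul, map_inv, ← hσ, ← d.q_z]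
      calc d.q * d.s * d.q * (d.q * d.z * d.q) * (d.q * d.s * d.q)
          = d.q * d.s * (d.q * d.q) * d.z * (d.q * d.q) * d.s * d.q := by group
        _ = d.q * (d.s * d.z * d.s) * d.q := by rw [d.q_sq]; group
        _ = (d.q * d.z * d.q)⁻¹ := by rw [d.s_z]; simp [mul_assoc, d.q_inv]
        _ = _ := rfl)
    rcases inverting_classify σ e1 e2 e3 with ⟨k, -, hk⟩ | ⟨k, -, hk⟩
    · exfalso
      -- `s` would be conjugate to `c`
      obtain ⟨w, e⟩ : ∃ w : Perm (Fin 5), w * c5 * w⁻¹ = swap 0 1 := ⟨v5, v5_conj⟩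
      have hh : (t5 ^ k)⁻¹ * (w * c5 * w⁻¹) * t5 ^ k = σ := by rw [e, ← hk]; group
      have hconj : ∃ n : G, d.s = n * d.c * n⁻¹ := by
        refine ⟨d.q * d.ι ((t5 ^ k)⁻¹) * d.ι w, ?_⟩
        calc d.s = d.q * (d.q * d.s * d.q) * d.q := (hqq _).symm
          _ = d.q * d.ι ((t5 ^ k)⁻¹ * (w * c5 * w⁻¹) * t5 ^ k) * d.q := by rw [hσ, hh]
          _ = _ := by simp only [c, map_mul, map_inv, mul_inv_rev, inv_inv, d.q_inv, mul_assoc]
      obtain ⟨n, hn⟩ := hconj
      have hcard := card_centralizer_conj n d.c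
      rw [← hn, h144] at hcard
      have hle : d.ι.range ≤ Subgroup.centralizer ({d.s} : Set G) := by
        rintro _ ⟨a, rfl⟩
        exact Subgroup.mem_centralizer_singleton_iff.2 (d.s_ι a).symm.eq
      have h120 : Nat.card d.ι.range = 120 := by
        rw [← Nat.card_congr (MonoidHom.ofInjective d.ι_injective).toEquiv, Nat.card_perm,
          Nat.card_eq_fintype_card, Fintype.card_fin]; rfl
      have := Subgroup.card_dvd_of_le hle
      rw [hcard, h120] at this
      omega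
    · exact ⟨k, hk⟩
  set r := d.ι r5 with hr
  set v := d.ι v5 with hv
  set s₁ := d.q * r * d.q with hs₁
  have hs₁' : s₁ = d.z ^ k * d.s * (d.z ^ k)⁻¹ := by
    rw [hs₁, hr, ← hk, map_mul, map_mul, map_inv, ← hσ, map_pow, show d.ι t5 = d.z' from rfl,
      ← d.qzq]
    have hp : (d.q * d.z * d.q) ^ k = d.q * d.z ^ k * d.q := by
      have h := (conj_pow (a := d.q) (b := d.z) (i := k))
      rwa [d.q_inv] at h
    rw [hp]
    simp only [mul_inv_rev, d.q_inv]
    calc d.q * (d.q * d.z ^ k * d.q * (d.q * d.s * d.q) * (d.q * ((d.z ^ k)⁻¹ * d.q))) * d.q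
        = (d.q * d.q) * d.z ^ k * (d.q * d.q) * d.s * (d.q * d.q) * (d.z ^ k)⁻¹ * (d.q * d.q) := by
          group
      _ = _ := by rw [d.q_sq]; group
  have s₁ι : ∀ a, Commute s₁ (d.ι a) := fun a => by
    rw [hs₁']
    exact (((d.z_ι a).pow_left k).mul_left (d.s_ι a)).mul_left ((d.z_ι a).pow_left k).inv_left
  have s₁z : s₁ * d.z * s₁⁻¹ = d.z⁻¹ := by
    rw [hs₁']
    calc d.z ^ k * d.s * (d.z ^ k)⁻¹ * d.z * (d.z ^ k * d.s * (d.z ^ k)⁻¹)⁻¹
        = d.z ^ k * (d.s * d.z * d.s⁻¹) * (d.z ^ k)⁻¹ := by group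
      _ = _ := by rw [hsinv, d.s_z]; group
  have s₁z' : Commute s₁ d.z' := s₁ι _
  have s₁c : Commute s₁ d.c := s₁ι _
  have rz : Commute r d.z := (d.z_ι _).symm
  have rz' : r * d.z' * r⁻¹ = d.z'⁻¹ := by
    rw [hr, z', ← map_inv, ← map_mul, ← map_mul, ← map_inv, inv_eq_of_mul_eq_one_right hr2, hrt]
  have rc : Commute r d.c := (show Commute r5 c5 from hrc).map d.ι
  have rs₁ : Commute r s₁ := (s₁ι r5).symm
  have r_sq : r * r = 1 := by rw [hr, ← map_mul, hr2, map_one]
  have v_sq : v * v = 1 := by rw [hv, ← map_mul, hv2, map_one]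
  have s₁_sq : s₁ * s₁ = 1 := by
    rw [hs₁, show d.q * r * d.q * (d.q * r * d.q) = d.q * r * (d.q * d.q) * r * d.q by group,
      d.q_sq, mul_one, mul_assoc d.q, r_sq, mul_one, d.q_sq]
  have qs₁q : d.q * s₁ * d.q = r := hqq r
  have vr : Commute v r := (show Commute v5 r5 from hvr).map d.ι
  have vs₁ : Commute v s₁ := (s₁ι v5).symm
  have vz : Commute v d.z := (d.z_ι _).symm
  have vc : v * d.c * v = r * d.c := by rw [hv, hr, c, ← map_mul, ← map_mul, ← map_mul, hvc]
  set v' := d.q * v * d.q with hv'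
  have v's₁ : Commute v' s₁ := cq vr
  have v'r : Commute v' r := qs₁q ▸ cq vs₁
  have v'_sq : v' * v' = 1 := by
    rw [hv', show d.q * v * d.q * (d.q * v * d.q) = d.q * v * (d.q * d.q) * v * d.q by group,
      d.q_sq, mul_one, mul_assoc d.q, v_sq, mul_one, d.q_sq]
  have v'c : v' * d.c * v' = s₁ * d.c := by
    calc v' * d.c * v' = d.q * (v * (d.q * d.c * d.q) * v) * d.q := by rw [hv']; group
      _ = d.q * (r * d.c) * d.q := by rw [hqc, vc]
      _ = (d.q * r * d.q) * (d.q * d.c * d.q) := by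
          rw [show d.q * r * d.q * (d.q * d.c * d.q) = d.q * r * (d.q * d.q) * d.c * d.q by group,
            d.q_sq, mul_one, mul_assoc d.q r d.c]
      _ = _ := by rw [hqc]
  -- the commutator of `v` and `v'`
  set e := v * v' * v * v' with he
  have ec : Commute e d.c := by
    have h1 : v' * d.c = s₁ * d.c * v' := by
      rw [← v'c, mul_assoc (v' * d.c), v'_sq, mul_one]
    have h2 : v * d.c = r * d.c * v := by
      rw [← vc, mul_assoc (v * d.c), v_sq, mul_one]
    calc e * d.c = v * v' * v * (v' * d.c) := by rw [he]; group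
      _ = v * v' * (v * s₁) * (d.c * v') := by rw [h1]; group
      _ = v * v' * s₁ * (v * d.c) * v' := by rw [vs₁.eq]; group
      _ = v * (v' * s₁) * r * d.c * v * v' := by rw [h2]; group
      _ = v * s₁ * (v' * r) * d.c * v * v' := by rw [v's₁.eq]; group
      _ = v * s₁ * r * (v' * d.c) * v * v' := by rw [v'r.eq]; group
      _ = v * s₁ * r * (s₁ * d.c * v') * v * v' := by rw [h1]
      _ = v * ((s₁ * r) * s₁) * d.c * v' * v * v' := by group
      _ = v * (r * (s₁ * s₁)) * d.c * v' * v * v' := by rw [← rs₁.eq]; group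
      _ = (v * r) * d.c * v' * v * v' := by rw [s₁_sq, mul_one]
      _ = r * (v * d.c) * v' * v * v' := by rw [vr.eq]; group
      _ = (r * r) * d.c * (v * v' * v * v') := by rw [h2]; group
      _ = d.c * e := by rw [r_sq, one_mul, he]
  have er : Commute e r := ((vr.mul_left v'r).mul_left vr).mul_left v'r
  have es : Commute e s₁ := ((vs₁.mul_left v's₁).mul_left vs₁).mul_left v's₁
  have eN : e ∈ Subgroup.normalizer (d.D : Set G) :=
    hCc ▸ Subgroup.mem_centralizer_singleton_iff.2 ec.eq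
  -- small helpers on `D`
  have inv_ne : ∀ {a : G}, a ^ 3 = 1 → a = a⁻¹ → a = 1 := fun {a} h3 h => by
    have h2 : a * a = 1 := by nth_rewrite 1 [h]; exact inv_mul_cancel a
    rwa [pow_succ, pow_two, h2, one_mul] at h3
  have fix_r : ∀ {x}, x ∈ d.D → Commute r x → ∃ i : ℕ, x = d.z ^ i := by
    intro x hx h
    obtain ⟨i, j, -, -, rfl⟩ := d.mem_D.1 hx
    refine ⟨i, ?_⟩
    have h2 : Commute r ((d.z ^ i)⁻¹ * (d.z ^ i * d.z' ^ j)) :=
      ((rz.pow_right i).inv_right).mul_right h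
    rw [inv_mul_cancel_left] at h2
    have h3 : r * d.z' ^ j * r⁻¹ = d.z' ^ j := by rw [h2.eq, mul_inv_cancel_right]
    rw [← conj_pow, rz', inv_pow] at h3
    rw [inv_ne (by rw [← pow_mul, mul_comm, pow_mul, d.z'_cube, one_pow]) h3.symm, mul_one]
  have fix_s : ∀ {x}, x ∈ d.D → Commute s₁ x → ∃ j : ℕ, x = d.z' ^ j := by
    intro x hx h
    obtain ⟨i, j, -, -, rfl⟩ := d.mem_D.1 hx
    refine ⟨j, ?_⟩
    have h2 : Commute s₁ ((d.z ^ i * d.z' ^ j) * (d.z' ^ j)⁻¹) :=
      h.mul_right ((s₁z'.pow_right j).inv_right)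
    rw [mul_inv_cancel_right] at h2
    have h3 : s₁ * d.z ^ i * s₁⁻¹ = d.z ^ i := by rw [h2.eq, mul_inv_cancel_right]
    rw [← conj_pow, s₁z, inv_pow] at h3
    rw [inv_ne (by rw [← pow_mul, mul_comm, pow_mul, d.z_cube, one_pow]) h3.symm, one_mul]
  have conj_comm : ∀ {g a x : G}, Commute g a → Commute a x → Commute a (g * x * g⁻¹) :=
    fun {g a x} h1 h2 => (h1.symm.mul_right h2).mul_right h1.symm.inv_right
  have cent_D : ∀ {f : G}, Commute f d.z → Commute f d.z' → Commute f r → Commute f s₁ →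
      f = 1 ∨ f = d.c := by
    intro f hz hz' hfr hfs
    rcases d.of_comm_D hz hz' with hf | ⟨x, hx, rfl⟩
    · left
      obtain ⟨i, hi⟩ := fix_r hf hfr.symm
      obtain ⟨j, hj⟩ := fix_s hf hfs.symm
      have h3 : s₁ * f * s₁⁻¹ = f := by rw [hfs.symm.eq, mul_inv_cancel_right]
      rw [hi, ← conj_pow, s₁z, inv_pow] at h3
      rw [hi, inv_ne (by rw [← pow_mul, mul_comm, pow_mul, d.z_cube, one_pow]) h3.symm]
    · right
      have hr' : Commute x r := by
        have := hfr.mul_left rc.symm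
        rwa [mul_assoc, d.c_sq, mul_one] at this
      have hs' : Commute x s₁ := by
        have := hfs.mul_left s₁c.symm
        rwa [mul_assoc, d.c_sq, mul_one] at this
      obtain ⟨i, hi⟩ := fix_r hx hr'.symm
      have h3 : s₁ * x * s₁⁻¹ = x := by rw [hs'.symm.eq, mul_inv_cancel_right]
      rw [hi, ← conj_pow, s₁z, inv_pow] at h3
      rw [hi, inv_ne (by rw [← pow_mul, mul_comm, pow_mul, d.z_cube, one_pow]) h3.symm, one_mul]
  have pow_cases : ∀ {a : G}, a ^ 3 = 1 → ∀ i : ℕ, a ^ i = 1 ∨ a ^ i = a ∨ a ^ i = a⁻¹ := by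
    intro a ha i
    rw [pow_eq_pow_mod i ha]
    have : i % 3 < 3 := Nat.mod_lt _ (by norm_num)
    interval_cases h : i % 3
    · exact Or.inl (pow_zero a)
    · exact Or.inr (Or.inl (pow_one a))
    · exact Or.inr (Or.inr (eq_inv_of_mul_eq_one_left (by rw [← pow_succ]; exact ha)))
  have zne : d.z ≠ 1 := by
    rw [z, Ne, map_eq_one_iff _ d.ιL_injective]; exact u3_ne_one
  have z'ne : d.z' ≠ 1 := by
    rw [z', Ne, map_eq_one_iff _ d.ι_injective]; exact t5_ne_one
  -- locate `e` among `1, r, s₁, r s₁`, possibly times `c`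
  obtain ⟨a, ha, hea⟩ : ∃ a ∈ ({1, r, s₁, r * s₁} : Set G), e = a ∨ e = a * d.c := by
    obtain ⟨i, hi⟩ := fix_r (d.conj_mem_D eN d.z_mem) (conj_comm er rz)
    obtain ⟨j, hj⟩ := fix_s (d.conj_mem_D eN d.z'_mem) (conj_comm es s₁z')
    have h1 : e * d.z * e⁻¹ = d.z ∨ e * d.z * e⁻¹ = d.z⁻¹ := by
      rcases pow_cases d.z_cube i with h | h | h <;> rw [h] at hi
      · exact absurd (conj_eq_one_iff.1 hi) zne
      · exact Or.inl hi
      · exact Or.inr hi
    have h2 : e * d.z' * e⁻¹ = d.z' ∨ e * d.z' * e⁻¹ = d.z'⁻¹ := by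
      rcases pow_cases d.z'_cube j with h | h | h <;> rw [h] at hj
      · exact absurd (conj_eq_one_iff.1 hj) z'ne
      · exact Or.inl hj
      · exact Or.inr hj
    have red : ∀ a : G, (∀ x, e * x * e⁻¹ = a * x * a⁻¹ ∨ x ∉ ({d.z, d.z'} : Set G)) →
        Commute a r → Commute a s₁ → (e = a ∨ e = a * d.c) := by
      intro a ha har has
      have hz : Commute (a⁻¹ * e) d.z := by
        rcases ha d.z with h | h
        · calc a⁻¹ * e * d.z = a⁻¹ * (e * d.z * e⁻¹) * e := by group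
            _ = d.z * (a⁻¹ * e) := by rw [h]; group
        · simp at h
      have hz' : Commute (a⁻¹ * e) d.z' := by
        rcases ha d.z' with h | h
        · calc a⁻¹ * e * d.z' = a⁻¹ * (e * d.z' * e⁻¹) * e := by group
            _ = d.z' * (a⁻¹ * e) := by rw [h]; group
        · simp at h
      rcases cent_D hz hz' (har.inv_left.mul_left er) (has.inv_left.mul_left es) with h | h
      · exact Or.inl (inv_mul_eq_one.1 h).symm
      · exact Or.inr (by rwa [inv_mul_eq_iff_eq_mul] at h)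
    have rzc : r * d.z * r⁻¹ = d.z := by rw [rz.eq, mul_inv_cancel_right]
    have szc : s₁ * d.z' * s₁⁻¹ = d.z' := by rw [s₁z'.eq, mul_inv_cancel_right]
    rcases h1 with h1 | h1 <;> rcases h2 with h2 | h2
    · refine ⟨1, by simp, red 1 (fun x => ?_) (Commute.one_left _) (Commute.one_left _)⟩
      by_cases hx : x ∈ ({d.z, d.z'} : Set G)
      · rcases hx with rfl | rfl <;> left <;> simp [h1, h2]
      · exact Or.inr hx
    · refine ⟨r, by simp, red r (fun x => ?_) (Commute.refl _) rs₁⟩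
      by_cases hx : x ∈ ({d.z, d.z'} : Set G)
      · rcases hx with rfl | rfl <;> left
        · rw [h1, rzc]
        · rw [h2, rz']
      · exact Or.inr hx
    · refine ⟨s₁, by simp, red s₁ (fun x => ?_) rs₁.symm (Commute.refl _)⟩
      by_cases hx : x ∈ ({d.z, d.z'} : Set G)
      · rcases hx with rfl | rfl <;> left
        · rw [h1, s₁z]
        · rw [h2, szc]
      · exact Or.inr hx
    · refine ⟨r * s₁, by simp, red (r * s₁) (fun x => ?_) ((Commute.refl r).mul_left rs₁.symm)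
        (rs₁.mul_left (Commute.refl _))⟩
      by_cases hx : x ∈ ({d.z, d.z'} : Set G)
      · rcases hx with rfl | rfl <;> left
        · rw [h1, show r * s₁ * d.z * (r * s₁)⁻¹ = r * (s₁ * d.z * s₁⁻¹) * r⁻¹ by group, s₁z,
            rz.inv_right.eq, mul_inv_cancel_right]
        · rw [h2, show r * s₁ * d.z' * (r * s₁)⁻¹ = r * (s₁ * d.z' * s₁⁻¹) * r⁻¹ by group, szc, rz']
      · exact Or.inr hx
  have ha_sq : a * a = 1 ∧ Commute v a := by
    rcases ha with rfl | rfl | rfl | rfl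
    · exact ⟨one_mul 1, Commute.one_right v⟩
    · exact ⟨r_sq, vr⟩
    · exact ⟨s₁_sq, vs₁⟩
    · exact ⟨by rw [mul_assoc, ← mul_assoc s₁, ← rs₁.eq, mul_assoc, s₁_sq, mul_one, r_sq],
        vr.mul_right vs₁⟩
  have einv : e⁻¹ = v' * v * v' * v := by
    rw [he]
    simp only [mul_inv_rev, inv_eq_of_mul_eq_one_right v_sq, inv_eq_of_mul_eq_one_right v'_sq,
      mul_assoc]
  have eve : v * e * v = e⁻¹ := by
    rw [he, einv, show v * (v * v' * v * v') * v = (v * v) * (v' * v * v' * v) by group, v_sq,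
      one_mul]
  have e_eq : e = a := by
    rcases hea with h | h
    · exact h
    · exfalso
      have ac : Commute a d.c := by
        rcases ha with rfl | rfl | rfl | rfl
        exacts [Commute.one_left _, rc, s₁c, rc.mul_left s₁c]
      have h1 : v * e * v = a * (r * d.c) := by
        rw [h, show v * (a * d.c) * v = (v * a) * d.c * v by group, ha_sq.2.eq, ← vc]; group
      have h2 : e⁻¹ = a * d.c := by
        apply inv_eq_of_mul_eq_one_right
        rw [h, show a * d.c * (a * d.c) = a * (d.c * a) * d.c by group, ← ac.eq,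
          show a * (a * d.c) * d.c = (a * a) * (d.c * d.c) by group, ha_sq.1, d.c_sq, one_mul]
      rw [eve, h2] at h1
      have h3 := mul_left_cancel h1
      have h4 : r = 1 := mul_eq_right.1 h3.symm
      rw [hr, map_eq_one_iff _ d.ι_injective] at h4
      exact hr1 h4
  have einv' : e⁻¹ = e := by rw [e_eq]; exact inv_eq_of_mul_eq_one_right ha_sq.1
  have qeq : d.q * e * d.q = e := by
    calc d.q * e * d.q = (d.q * v * d.q) * (d.q * v' * d.q) * (d.q * v * d.q) * (d.q * v' * d.q) := by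
          rw [he]
          simp only [mul_assoc, ← mul_assoc d.q d.q, d.q_sq, one_mul]
      _ = v' * v * v' * v := by
          rw [← hv', show d.q * v' * d.q = v from hqq v]
      _ = e := by rw [← einv, einv']
  have qιq : ∀ b, Commute r (d.q * d.ι b * d.q) := fun b => qs₁q ▸ cq (s₁ι b)
  set x5 := v5 * t5 with hx5
  have hw : v' * d.z = d.q * d.ι x5 * d.q := by
    rw [hx5, map_mul, hv', ← d.qz'q, hv, z',
      show d.q * d.ι v5 * d.q * (d.q * d.ι t5 * d.q) = d.q * d.ι v5 * (d.q * d.q) * d.ι t5 * d.q by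
        group, d.q_sq, mul_one, mul_assoc d.q]
  have pow_q : ∀ (g : G) (n : ℕ), (d.q * g * d.q) ^ n = d.q * g ^ n * d.q := fun g n => by
    have h := conj_pow (a := d.q) (b := g) (i := n)
    rwa [d.q_inv] at h
  have hw5 : (v' * d.z) ^ 5 = 1 := by
    rw [hw, pow_q, ← map_pow, h5, map_one, mul_one, d.q_sq]
  have hew5 : (e * (v' * d.z)) ^ 5 = 1 := by
    have h1 : v * (v' * d.z) * v = e * (v' * d.z) := by
      calc v * (v' * d.z) * v = v * v' * (d.z * v) := by group
        _ = v * v' * (v * d.z) := by rw [vz.eq]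
        _ = v * v' * v * (v' * v') * d.z := by rw [v'_sq]; group
        _ = e * (v' * d.z) := by rw [he]; group
    have hvinv : v⁻¹ = v := inv_eq_of_mul_eq_one_right v_sq
    have h2 := conj_pow (a := v) (b := v' * d.z) (i := 5)
    rw [hvinv, h1, hw5, mul_one, v_sq] at h2
    exact h2
  have r5pow : r ^ 5 = r := by
    rw [pow_succ, show r ^ 4 = (r ^ 2) ^ 2 from pow_mul r 2 2, pow_two r, r_sq, one_pow, one_mul]
  have e1 : e = 1 := by
    rcases ha with rfl | rfl | rfl | rfl
    · exact e_eq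
    · exfalso
      have hcomm : Commute r (v' * d.z) := hw ▸ qιq x5
      rw [e_eq, hcomm.mul_pow, hw5, mul_one, r5pow, hr, map_eq_one_iff _ d.ι_injective] at hew5
      exact hr1 hew5
    · exfalso
      rw [e_eq, qs₁q] at qeq
      rw [← qeq, rzc_aux d.z rz] at s₁z
      exact zne (inv_ne d.z_cube s₁z)
    · exfalso
      have hprod : s₁ * (v' * d.z) = d.q * d.ι (r5 * x5) * d.q := by
        rw [hw, hs₁, hr, map_mul d.ι r5 x5,
          show d.q * d.ι r5 * d.q * (d.q * d.ι x5 * d.q) =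
            d.q * d.ι r5 * (d.q * d.q) * d.ι x5 * d.q by group, d.q_sq, mul_one, mul_assoc d.q]
      rw [e_eq, mul_assoc, hprod, (qιq (r5 * x5)).mul_pow, r5pow, pow_q, ← map_pow] at hew5
      have hr' := eq_inv_of_mul_eq_one_left hew5
      have hinv : r = d.q * d.ι (((r5 * x5) ^ 5)⁻¹) * d.q := by
        rw [hr', map_inv]; simp only [mul_inv_rev, d.q_inv, mul_assoc]
      -- then `r` would be central in a copy of the group of degree five
      have hcen : ∀ b, ((r5 * x5) ^ 5)⁻¹ * b = b * ((r5 * x5) ^ 5)⁻¹ := by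
        intro b
        have h := cq (qιq b)
        rw [hqq, hinv, hqq] at h
        exact d.ι_injective (by rw [map_mul, map_mul]; exact h.eq)
      have h0 := cent_five _ (hcen t5) (hcen r5) (hcen v5)
      rw [h0, map_one, mul_one, d.q_sq] at hinv
      rw [hr, map_eq_one_iff _ d.ι_injective] at hinv
      exact hr1 hinv
  have vv' : Commute v v' := by
    rw [he] at e1
    show v * v' = v' * v
    calc v * v' = v * v' * v * v' * (v' * v) := by
          rw [show v * v' * v * v' * (v' * v) = v * v' * v * (v' * v') * v by group, v'_sq, mul_one,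
            mul_assoc _ v v, v_sq, mul_one]
      _ = v' * v := by rw [e1, one_mul]
  -- the two factors commute
  let ι' : Perm (Fin 5) →* G := (MulAut.conj d.q).toMonoidHom.comp d.ι
  have hι' : ∀ b, ι' b = d.q * d.ι b * d.q := fun b => by
    show d.q * d.ι b * d.q⁻¹ = _
    rw [d.q_inv]
  have gen_ext : ∀ (f : Perm (Fin 5) →* G) (g : G), Commute (f t5) g → Commute (f r5) g →
      Commute (f v5) g → ∀ b ∈ alternatingGroup (Fin 5), Commute (f b) g := by
    intro f g h1 h2 h3 b hb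
    have hle : Subgroup.closure {t5, r5, v5} ≤ (Subgroup.centralizer ({g} : Set G)).comap f := by
      rw [Subgroup.closure_le]
      rintro x (rfl | rfl | rfl)
      exacts [Subgroup.mem_centralizer_singleton_iff.2 h1.eq,
        Subgroup.mem_centralizer_singleton_iff.2 h2.eq, Subgroup.mem_centralizer_singleton_iff.2 h3.eq]
    rw [← closure_gens] at hb
    exact Subgroup.mem_centralizer_singleton_iff.1 (hle hb)
  have hprod : ∀ a ∈ alternatingGroup (Fin 5), ∀ b ∈ alternatingGroup (Fin 5),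
      Commute (d.ι a) (ι' b) := by
    intro a ha b hb
    have t1 : ∀ b, Commute r (ι' b) := fun b => by rw [hι']; exact qιq b
    have t2 : ∀ b, Commute d.z' (ι' b) := fun b => by
      rw [hι']; have := cq (d.z_ι b); rwa [d.qzq] at this
    have hz_i : ι' t5 = d.z := by rw [hι']; exact d.qz'q
    have hs_i : ι' r5 = s₁ := by rw [hι']
    have hv_i : ι' v5 = v' := by rw [hι']
    have t3 : Commute v (ι' b) :=
      (gen_ext ι' v (hz_i ▸ vz.symm) (hs_i ▸ vs₁.symm) (hv_i ▸ vv'.symm) b hb).symm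
    exact gen_ext d.ι (ι' b) (t2 b) (t1 b) t3 a ha
  let i1 : alternatingGroup (Fin 5) →* G := d.ι.comp (Subgroup.subtype _)
  let i2 : alternatingGroup (Fin 5) →* G := ι'.comp (Subgroup.subtype _)
  let Φ := MonoidHom.noncommCoprod i1 i2 (fun a b => hprod _ a.2 _ b.2)
  have hΦ : ∀ a b, Φ (a, b) = d.ι (a : Perm (Fin 5)) * ι' (b : Perm (Fin 5)) := fun a b => rfl
  have cent_alt : ∀ σ : Perm (Fin 5), (∀ b ∈ alternatingGroup (Fin 5), σ * b = b * σ) → σ = 1 :=
    fun σ h => cent_five σ (h _ t5_sign) (h _ hsr) (h _ hsv)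
  have hinj : Function.Injective Φ := by
    refine (injective_iff_map_eq_one Φ).2 ?_
    rintro ⟨a, b⟩ h
    rw [hΦ] at h
    have hab : d.ι (a : Perm (Fin 5)) = ι' ((b : Perm (Fin 5))⁻¹) := by
      rw [map_inv]; exact eq_inv_of_mul_eq_one_left h
    have ha1 : (a : Perm (Fin 5)) = 1 := cent_alt _ fun x hx => by
      apply d.ι_injective
      rw [map_mul, map_mul, hab]
      exact (hprod x hx _ (inv_mem b.2)).symm.eq
    rw [ha1, map_one, one_mul, hι'] at h
    have hb1 : (b : Perm (Fin 5)) = 1 := by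
      apply d.ι_injective
      rw [map_one, ← hqq (d.ι _), h, mul_one, d.q_sq]
    exact Prod.ext (Subtype.ext ha1) (Subtype.ext hb1)
  have hΦq : ∀ a b, d.q * Φ (a, b) * d.q = Φ (b, a) := by
    intro a b
    rw [hΦ, hΦ, hι', hι']
    calc d.q * (d.ι (a : Perm (Fin 5)) * (d.q * d.ι b * d.q)) * d.q
        = (d.q * d.ι (a : Perm (Fin 5)) * d.q) * d.ι b * (d.q * d.q) := by group
      _ = _ := by
          rw [d.q_sq, mul_one, ← hι']
          exact (hprod _ b.2 _ a.2).symm.eq
  let κ : MulAut (alternatingGroup (Fin 5)) := MulAut.conjNormal c5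
  have hκ : ∀ a, ((κ a : alternatingGroup (Fin 5)) : Perm (Fin 5)) = c5 * a * c5 := fun a => by
    show ((MulAut.conjNormal c5 a : alternatingGroup (Fin 5)) : Perm (Fin 5)) = _
    rw [MulAut.conjNormal_apply, inv_eq_of_mul_eq_one_right c5_sq]
  have hΦc : ∀ a b, d.c * Φ (a, b) * d.c = Φ (κ a, κ b) := by
    intro a b
    rw [hΦ, hΦ, hι', hι', hκ, hκ, map_mul, map_mul, map_mul, map_mul]
    show d.c * (d.ι (a : Perm (Fin 5)) * (d.q * d.ι b * d.q)) * d.c =
      d.c * d.ι a * d.c * (d.q * (d.c * d.ι b * d.c) * d.q)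
    calc d.c * (d.ι (a : Perm (Fin 5)) * (d.q * d.ι b * d.q)) * d.c
        = d.c * d.ι a * (d.q * d.ι b) * (d.q * d.c) := by group
      _ = d.c * d.ι a * (d.c * d.c) * (d.q * d.ι b) * (d.c * d.q) := by
          rw [d.c_sq, mul_one, d.q_c_comm.eq]
      _ = d.c * d.ι a * d.c * (d.c * d.q) * d.ι b * d.c * d.q := by group
      _ = _ := by rw [← d.q_c_comm.eq]; group
  let θ : alternatingGroup (Fin 5) := ⟨t5, t5_sign⟩
  have hΦ1 : Φ (θ, 1) = d.z' := by
    rw [hΦ]; simp [θ, z']
  have hΦ2 : Φ (1, θ) = d.z := by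
    rw [hΦ, hι']; simp only [OneMemClass.coe_one, map_one, one_mul]; exact d.qz'q
  have hΦ12 : Φ (θ, θ) = d.z * d.z' := by
    rw [hΦ, hι']; exact (congrArg (d.z' * ·) d.qz'q).trans d.z_z'.symm.eq
  -- everything lies in the extension of the product by `c` and `q`
  set H := Subgroup.closure ((Φ.range : Set G) ∪ {d.c, d.q}) with hH
  have hMH : ∀ a b, Φ (a, b) ∈ H := fun a b => Subgroup.subset_closure (Or.inl ⟨_, rfl⟩)
  have hcH : d.c ∈ H := Subgroup.subset_closure (Or.inr (by simp))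
  have hqH : d.q ∈ H := Subgroup.subset_closure (Or.inr (by simp))
  have hzH : d.z ∈ H := hΦ2 ▸ hMH _ _
  have hιH : ∀ b, d.ι b ∈ H := by
    intro b
    rcases Int.units_eq_one_or (Perm.sign b) with hb | hb
    · have := hMH ⟨b, hb⟩ 1
      rwa [hΦ, OneMemClass.coe_one, map_one, mul_one] at this
    · have hb' : Perm.sign (b * c5) = 1 := by rw [map_mul, hb, hsc]; rfl
      have h1 := mul_mem (hMH ⟨b * c5, hb'⟩ 1) hcH
      rw [hΦ, OneMemClass.coe_one, map_one, mul_one, c, ← map_mul] at h1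
      rwa [show (b * c5) * c5 = b by rw [mul_assoc, c5_sq, mul_one]] at h1
  have hCz : Subgroup.centralizer ({d.z} : Set G) ≤ H := by
    intro g hg
    obtain ⟨i, b, -, rfl⟩ := d.of_comm_z (Subgroup.mem_centralizer_singleton_iff.1 hg)
    exact mul_mem (pow_mem hzH i) (hιH b)
  have hCz' : Subgroup.centralizer ({d.z'} : Set G) ≤ H := by
    intro g hg
    have h := cq (show Commute g d.z' from Subgroup.mem_centralizer_singleton_iff.1 hg)
    rw [d.qz'q] at h
    have := mul_mem (mul_mem hqH (hCz (Subgroup.mem_centralizer_singleton_iff.2 h.eq))) hqH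
    rwa [hqq] at this
  have hs₁H : s₁ ∈ H := by rw [hs₁, hr]; exact mul_mem (mul_mem hqH (hιH _)) hqH
  have hNz : ∀ n : G, (n * d.z * n⁻¹ = d.z ∨ n * d.z * n⁻¹ = d.z⁻¹) → n ∈ H := by
    intro n h
    rcases h with h | h
    · exact hCz (Subgroup.mem_centralizer_singleton_iff.2 (mul_inv_eq_iff_eq_mul.1 h))
    · have h1 : Commute (s₁⁻¹ * n) d.z := by
        calc s₁⁻¹ * n * d.z = s₁⁻¹ * (n * d.z * n⁻¹) * n := by group
          _ = s₁⁻¹ * (s₁ * d.z * s₁⁻¹) * n := by rw [h, s₁z]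
          _ = d.z * (s₁⁻¹ * n) := by group
      have := mul_mem hs₁H (hCz (Subgroup.mem_centralizer_singleton_iff.2 h1.eq))
      rwa [mul_inv_cancel_left] at this
  have h360' : Nat.card (Subgroup.centralizer ({d.z'} : Set G)) = 360 := by
    rw [← d.card_centralizer_z, ← d.qzq]
    have := card_centralizer_conj d.q d.z
    rwa [d.q_inv] at this
  have hNH : Subgroup.normalizer (d.D : Set G) ≤ H := by
    intro n hn
    have hcard : Nat.card (Subgroup.centralizer ({n * d.z * n⁻¹} : Set G)) = 360 := by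
      rw [card_centralizer_conj]; exact d.card_centralizer_z
    rcases d.line_cases (d.conj_mem_D hn d.z_mem) hcard (by rw [Ne, conj_eq_one_iff]; exact zne) with
      h | h | h | h
    · exact hNz n (Or.inl h)
    · exact hNz n (Or.inr h)
    all_goals
      have h1 : d.q * n * d.z * (d.q * n)⁻¹ = d.q * (n * d.z * n⁻¹) * d.q := by
        rw [mul_inv_rev, d.q_inv]; group
      rw [h] at h1
      have h2 : d.q * n ∈ H := hNz _ (by
        first
        | (left; rw [h1]; exact d.qz'q)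
        | (right; rw [h1, ← d.qz'q]; simp only [mul_inv_rev, d.q_inv, mul_assoc]))
      have := mul_mem hqH h2
      rwa [← mul_assoc, d.q_sq, one_mul] at this
  have hcM : d.c ∉ Φ.range := by
    rintro ⟨⟨a, b⟩, h⟩
    rw [hΦ] at h
    have hb : ι' (b : Perm (Fin 5)) = d.ι ((a : Perm (Fin 5))⁻¹ * c5) := by
      rw [map_mul, map_inv, eq_inv_mul_iff_mul_eq]; exact h
    have h1 : (a : Perm (Fin 5))⁻¹ * c5 = 1 := cent_alt _ fun x hx => by
      apply d.ι_injective
      rw [map_mul, map_mul, map_mul, ← map_mul, ← hb]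
      exact (hprod x hx _ b.2).symm.eq
    have h2 := congrArg Perm.sign h1
    rw [map_mul, map_inv, a.2, hsc, map_one] at h2
    exact absurd h2 (by decide)
  have hCc3 : ∀ g ∈ Subgroup.centralizer ({d.c} : Set G), g ^ 3 = 1 →
      ∃ i j : ℕ, g = Φ (θ ^ i, θ ^ j) := by
    intro g hg h3
    obtain ⟨i, j, -, -, rfl⟩ := d.mem_D.1 (d.norm_cube_mem (hCc ▸ hg) h3)
    refine ⟨j, i, ?_⟩
    rw [show ((θ ^ j, θ ^ i) : alternatingGroup (Fin 5) × alternatingGroup (Fin 5)) =
      (θ, 1) ^ j * (1, θ) ^ i by simp [Prod.pow_mk], map_mul, map_pow, map_pow, hΦ1, hΦ2]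
    exact (d.z_z'.pow_pow i j).eq
  have hCM : Subgroup.centralizer (Φ.range : Set G) = ⊥ := by
    rw [Subgroup.eq_bot_iff_forall]
    intro g hg
    have hcomm : ∀ a b, Commute g (Φ (a, b)) := fun a b =>
      (Subgroup.mem_centralizer_iff.1 hg _ ⟨_, rfl⟩).symm
    have gz' : Commute g d.z' := hΦ1 ▸ hcomm θ 1
    have gz : Commute g d.z := hΦ2 ▸ hcomm 1 θ
    have gι : ∀ x (hx : x ∈ alternatingGroup (Fin 5)), Commute g (d.ι x) := fun x hx => by
      have := hcomm ⟨x, hx⟩ 1
      rwa [hΦ, OneMemClass.coe_one, map_one, mul_one] at this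
    have gι' : ∀ x (hx : x ∈ alternatingGroup (Fin 5)), Commute g (ι' x) := fun x hx => by
      have := hcomm 1 ⟨x, hx⟩
      rwa [hΦ, OneMemClass.coe_one, map_one, one_mul] at this
    rcases cent_D gz gz' (gι r5 hsr) (by simpa [hι', hs₁, hr] using gι' r5 hsr) with h | h
    · exact h
    · exfalso
      have h1 : Commute d.c v := h ▸ gι v5 hsv
      rw [← h1.eq, mul_assoc, v_sq, mul_one] at vc
      have h4 : r = 1 := mul_eq_right.1 vc.symm
      rw [hr, map_eq_one_iff _ d.ι_injective] at h4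
      exact hr1 h4
  obtain ⟨hn, hidx, hsq⟩ := Cfsg.Agent.H87.SymEight.index_four Φ hinj κ hκ θ rfl d.c d.q d.c_sq
    d.c_ne d.q_sq d.q_c_comm.symm hΦc hΦq hcM h144 (hCc ▸ hNH) hCc3 (hΦ1 ▸ hCz') (hΦ2 ▸ hCz)
    (hΦ12 ▸ d.cy_le.trans hNH) (hΦ1 ▸ h360') (hΦ12 ▸ d.card_cy) d.not_27
    (fun g h1 h2 h3 => d.eq_c_of_comm (hΦ2 ▸ h2) (hΦ1 ▸ h1) h3) endgame
  exact ⟨Φ, hinj, fun a b => by rw [d.q_inv]; exact hΦq a b, hn, hidx, hsq, hCM⟩

end Data

end Cfsg.Agent.H34.SymEight
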